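import Cfsg.Agent.H829.K547.PslA
import Cfsg.Agent.H311.K547.Data

/-!
# S4547, QO-EXT3: outer automorphisms of `PSU_3(q)`, `q` odd (helper829)

`N3` : the stabiliser in `SU_3(q)` of a frame and of its last point, of odd index.
-/

set_option autoImplicit false

namespace Cfsg.Agent.H829.K547.PsuC

open Cfsg Matrix Equiv Cfsg.Agent.LieClassical.HermBasic Cfsg.Agent.LieClassical.HermSiegel
open Cfsg.Agent.LieClassical.SUBasic
open Cfsg.Agent.ClassicalGeometry.PSUAutCount Cfsg.Agent.ClassicalGeometry.UnitAutBasic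
open Cfsg.Agent.H311.K547 Cfsg.Agent.H821.K547

variable {F : Type*} [Field F] {q : ℕ} {θ : Perm (Fin 3)} {j : F}

theorem fb_two (hθ : θ 2 = 2) : fb θ j 2 = Pi.single 2 1 := by
  rw [fb, co, if_pos hθ, zero_smul, add_zero]

theorem mul_two {A : Matrix (Fin 3) (Fin 3) F} {σ : Perm (Fin 3)} (hθ : θ 2 = 2) (hA : Mono θ j A σ) (hσ : σ 2 = 2) :
    A *ᵥ Pi.single 2 1 = A 2 2 • Pi.single 2 (1 : F) ∧ A 2 2 ≠ 0 := by
  obtain ⟨c, hc, h1⟩ := hA 2
  rw [hσ, fb_two hθ] at h1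
  have h2 := congrFun h1 2
  rw [Matrix.mulVec_single_one, Pi.smul_apply, Pi.single_eq_same, smul_eq_mul, mul_one] at h2
  change A 2 2 = c at h2
  rw [h2]
  exact ⟨h1, hc⟩

theorem entry_mul {A B : Matrix (Fin 3) (Fin 3) F} {σ ρ : Perm (Fin 3)} (hθ : θ 2 = 2) (hA : Mono θ j A σ)
    (hσ : σ 2 = 2) (hB : Mono θ j B ρ) (hρ : ρ 2 = 2) : (A * B) 2 2 = A 2 2 * B 2 2 := by
  have h1 := (mul_two hθ hA hσ).1
  have h2 := (mul_two hθ hB hρ).1
  have h3 := (mul_two hθ (hA.mul hB) (by rw [Perm.mul_apply, hρ, hσ])).1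
  rw [← mulVec_mulVec, h2, mulVec_smul, h1] at h3
  have h4 := congrFun h3 2
  simp only [Pi.smul_apply, Pi.single_eq_same, smul_eq_mul, mul_one] at h4
  rw [← h4, mul_comm]

/-- the permutation -/
theorem exists_pm {q : ℕ} (hq : q ≠ 0) (h : Fd q θ j) : ∃ f : FrS (n := 3) q θ j →* Perm (Fin 3),
    (∀ x : FrS q θ j, Mono θ j (mat (x : SU 3 F q)) (f x)) ∧
      ∀ (x : FrS q θ j) (σ : Perm (Fin 3)), Mono θ j (mat (x : SU 3 F q)) σ → f x = σ := by
  choose f hf using fun x : FrS (n := 3) q θ j => mem_FrS.1 x.2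
  refine ⟨MonoidHom.mk' f fun x y => ?_, hf, fun x σ hσ => (hf x).unique hq h hσ⟩
  refine (hf (x * y)).unique hq h ?_
  rw [Subgroup.coe_mul, mat_mul]
  exact (hf x).mul (hf y)

/-- the stabiliser of the frame and of the last point -/
def N3 (q : ℕ) (θ : Perm (Fin 3)) (j : F) : Subgroup (SU 3 F q) where
  carrier := {g | ∃ σ : Perm (Fin 3), Mono θ j (mat g) σ ∧ σ 2 = 2}
  one_mem' := ⟨1, Mono.one, rfl⟩
  mul_mem' := by
    rintro g h ⟨σ, hσ, hσ2⟩ ⟨ρ, hρ, hρ2⟩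
    exact ⟨σ * ρ, by rw [mat_mul]; exact hσ.mul hρ, by rw [Perm.mul_apply, hρ2, hσ2]⟩
  inv_mem' := by
    rintro g ⟨σ, hσ, hσ2⟩
    refine ⟨σ⁻¹, hσ.inv (by rw [← mat_mul, inv_mul_cancel, mat_one]), ?_⟩
    rw [Perm.inv_eq_iff_eq, hσ2]

theorem mem_N3 {g : SU 3 F q} : g ∈ N3 q θ j ↔ ∃ σ : Perm (Fin 3), Mono θ j (mat g) σ ∧ σ 2 = 2 := Iff.rfl

/-- the frames which we use -/
def Two (q : ℕ) (θ : Perm (Fin 3)) : Prop := (q % 4 = 3 ∧ θ = 1) ∨ (q % 4 = 1 ∧ θ = swap 0 1)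

theorem Two.two {q : ℕ} {θ : Perm (Fin 3)} (h : Two q θ) : θ 2 = 2 := by
  rcases h with ⟨-, rfl⟩ | ⟨-, rfl⟩
  · rfl
  · decide

theorem Two.oddF {q : ℕ} {θ : Perm (Fin 3)} (h : Two q θ) : OddF q θ := by
  rcases h with ⟨h, rfl⟩ | ⟨h, rfl⟩
  · exact Or.inl ⟨by omega, rfl⟩
  · refine Or.inr ⟨h, ?_⟩
    rw [Nat.card_eq_fintype_card]
    decide

theorem comm_swap : ∀ σ : Perm (Fin 3), (∀ k, σ (swap (0 : Fin 3) 1 k) = swap 0 1 (σ k)) → σ 2 = 2 := by
  decide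

theorem perm_sq (π : Perm (Fin 3)) (h : π 2 = 2) : π * π = 1 := by
  revert π
  decide

theorem perm_comm (π ρ : Perm (Fin 3)) (h : π 2 = 2) (h' : ρ 2 = 2) : π * ρ = ρ * π := by
  revert π ρ
  decide

section fin

variable [Fintype F] (hF : Fintype.card F = q ^ 2) (h : Fd q θ j) (ho : Two q θ)
include hF h ho

theorem odd_index_N3 : Odd (N3 q θ j).index := by
  have hq : q ≠ 0 := (q_pos hF).ne'
  obtain ⟨f, hf, hf'⟩ := exists_pm hq h
  have h1 : N3 q θ j = ((MulAction.stabilizer (Perm (Fin 3)) (2 : Fin 3)).comap f).map (FrS q θ j).subtype := by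
    ext g
    constructor
    · rintro ⟨σ, hσ, hσ2⟩
      refine ⟨⟨g, σ, hσ⟩, ?_, rfl⟩
      show f ⟨g, σ, hσ⟩ ∈ MulAction.stabilizer (Perm (Fin 3)) (2 : Fin 3)
      rw [hf' ⟨g, σ, hσ⟩ σ hσ]
      exact hσ2
    · rintro ⟨x, hx, rfl⟩
      exact ⟨f x, hf x, hx⟩
  rw [h1, Subgroup.index_map_subtype]
  refine Odd.mul ?_ (odd_index_FrS hF h (by norm_num) ho.oddF)
  rcases ho with ⟨h3, h4⟩ | ⟨h3, h4⟩
  · have hs : Function.Surjective f := by
      intro σ
      obtain ⟨g, hg⟩ := exists_su hF h (by norm_num) (σ := σ) (fun k => by rw [h4]; rfl)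
      exact ⟨⟨g, σ, hg⟩, hf' _ _ hg⟩
    rw [Subgroup.index_comap_of_surjective _ hs, MulAction.index_stabilizer_of_transitive, Nat.card_fin]
    decide
  · have ht : (MulAction.stabilizer (Perm (Fin 3)) (2 : Fin 3)).comap f = ⊤ := by
      rw [eq_top_iff]
      intro x _
      have h5 := (hf x).comm hq h (fun u v => (LieClassical.HermBasic.mem_SU_iff _).1 x.1.2 u v)
      have h6 : ∀ σ : Perm (Fin 3), (∀ k, σ (θ k) = θ (σ k)) → σ 2 = 2 := by
        rw [h4]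
        exact comm_swap
      exact h6 _ h5
    rw [ht, Subgroup.index_top]
    exact odd_one

omit ho in
/-- the last coefficient has norm one -/
theorem entry_norm (hθ : θ 2 = 2) {g : SU 3 F q} {σ : Perm (Fin 3)} (hg : Mono θ j (mat g) σ) (hσ : σ 2 = 2) :
    (mat g) 2 2 ^ (q + 1) = 1 := by
  have hq : q ≠ 0 := (q_pos hF).ne'
  have hi : Isom q (mat g) := fun u v => (LieClassical.HermBasic.mem_SU_iff _).1 g.2 u v
  choose c hc hc' using hg
  have h1 := coef_rel hq h hi (fun k => Mono.comm hq h (fun k => ⟨c k, hc k, hc' k⟩) hi k) hc' 2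
  have h2 := hc' 2
  rw [hσ, fb_two hθ, (mul_two hθ (fun k => ⟨c k, hc k, hc' k⟩) hσ).1] at h2
  have h3 := congrFun h2 2
  simp only [Pi.smul_apply, Pi.single_eq_same, smul_eq_mul, mul_one] at h3
  rw [hθ, ← h3] at h1
  rw [pow_succ']
  exact h1

end fin

/-- the last coefficient as a unit -/
noncomputable def u3 (hθ : θ 2 = 2) (x : N3 q θ j) : Fˣ :=
  Units.mk0 ((mat (x : SU 3 F q)) 2 2) (mul_two hθ (mem_N3.1 x.2).choose_spec.1 (mem_N3.1 x.2).choose_spec.2).2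

theorem u3_mul (hθ : θ 2 = 2) (x y : N3 q θ j) : u3 hθ (x * y) = u3 hθ x * u3 hθ y := by
  apply Units.ext
  show (mat ((x * y : N3 q θ j) : SU 3 F q)) 2 2 = (mat (x : SU 3 F q)) 2 2 * (mat (y : SU 3 F q)) 2 2
  rw [Subgroup.coe_mul, mat_mul]
  exact entry_mul hθ (mem_N3.1 x.2).choose_spec.1 (mem_N3.1 x.2).choose_spec.2
    (mem_N3.1 y.2).choose_spec.1 (mem_N3.1 y.2).choose_spec.2

/-- the two homomorphisms together -/
noncomputable def f3 (hq : q ≠ 0) (h : Fd q θ j) (hθ : θ 2 = 2) (e : ℕ) : N3 q θ j →* Perm (Fin 3) × Fˣ :=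
  MonoidHom.mk' (fun x => ((mem_N3.1 x.2).choose, u3 hθ x ^ e)) (by
    intro x y
    refine Prod.ext ?_ ?_
    · refine (mem_N3.1 (x * y).2).choose_spec.1.unique hq h ?_
      rw [Subgroup.coe_mul, mat_mul]
      exact (mem_N3.1 x.2).choose_spec.1.mul (mem_N3.1 y.2).choose_spec.1
    · simp only [Prod.snd_mul]
      rw [u3_mul, mul_pow])

section f3

variable {hq : q ≠ 0} {h : Fd q θ j} {hθ : θ 2 = 2} {e : ℕ}

theorem f3_fst (x : N3 q θ j) : Mono θ j (mat (x : SU 3 F q)) (f3 hq h hθ e x).1 ∧ (f3 hq h hθ e x).1 2 = 2 :=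
  (mem_N3.1 x.2).choose_spec

theorem f3_snd (x : N3 q θ j) : (((f3 hq h hθ e x).2 : Fˣ) : F) = (mat (x : SU 3 F q)) 2 2 ^ e := by
  show ((u3 hθ x ^ e : Fˣ) : F) = _
  rw [Units.val_pow_eq_pow_val]
  rfl

theorem f3_eq {x y : N3 q θ j} {σ : Perm (Fin 3)} (hx : Mono θ j (mat (x : SU 3 F q)) σ)
    (hy : Mono θ j (mat (y : SU 3 F q)) σ) (hxy : (mat (x : SU 3 F q)) 2 2 ^ e = (mat (y : SU 3 F q)) 2 2 ^ e) :
    f3 hq h hθ e x = f3 hq h hθ e y := by
  refine Prod.ext ?_ (Units.ext ?_)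
  · rw [(f3_fst x).1.unique hq h hx, (f3_fst y).1.unique hq h hy]
  · rw [f3_snd, f3_snd, hxy]

end f3

/-- square roots of one -/
theorem pm_one {a : F} {e : ℕ} (ha : a ^ (2 * e) = 1) : a ^ e = 1 ∨ a ^ e = -1 := by
  have h1 : (a ^ e) ^ 2 = 1 := by rw [← pow_mul, mul_comm, ha]
  have h2 : (a ^ e - 1) * (a ^ e + 1) = 0 := by linear_combination h1
  rcases mul_eq_zero.1 h2 with h3 | h3
  · exact Or.inl (by linear_combination h3)
  · exact Or.inr (by linear_combination h3)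

section main

variable [Fintype F] (hF : Fintype.card F = q ^ 2) (h : Fd q θ j) (ho : Two q θ)
include hF h ho

omit [Fintype F] hF in
/-- the last coefficient under semilinear conjugation -/
theorem entry_semi {d : GU 3 F q} (hd : Mono θ j (gm d) 1) (ρ : F ≃+* F) {g : SU 3 F q} {σ : Perm (Fin 3)}
    (hg : Mono θ j (mat g) σ) (hσ : σ 2 = 2) (hσ' : ∀ k, σ (θ k) = θ (σ k)) :
    (mat (semiConj d ρ g)) 2 2 = ρ ((mat g) 2 2) := by
  obtain ⟨h1, h2⟩ := mul_two ho.two hd rfl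
  obtain ⟨h3, -⟩ := mul_two ho.two hg hσ
  obtain ⟨h4, -⟩ := mul_two ho.two (mono_semi h hd ρ hσ' hg) hσ
  have h5 := act_semiConj d ρ g (Pi.single 2 1)
  have h6 : ∀ c : F, (fun i => ρ ((c • (Pi.single 2 1 : Fin 3 → F)) i)) = ρ c • (Pi.single 2 1 : Fin 3 → F) := by
    intro c
    funext i
    simp only [Pi.smul_apply, smul_eq_mul, map_mul, Pi.single_apply]
    split_ifs <;> simp
  have h7 := h6 1
  rw [one_smul, map_one, one_smul] at h7
  rw [h7, h1, act_def, act_def, h3, h6, mulVec_smul, mulVec_smul, h1, h4, smul_smul, smul_smul] at h5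
  have h8 := congrFun h5 2
  simp only [Pi.smul_apply, Pi.single_eq_same, smul_eq_mul, mul_one] at h8
  rw [mul_comm] at h8
  exact mul_right_cancel₀ h2 h8

/-- a diagonal element -/
theorem exists_dg {δ : F} (hδ : δ * δ ^ q = 1) : ∃ b : N3 q θ j,
    Mono θ j (mat (b : SU 3 F q)) 1 ∧ (mat (b : SU 3 F q)) 2 2 = δ := by
  have hq : q ≠ 0 := (q_pos hF).ne'
  have hδ0 : δ ≠ 0 := by
    rintro rfl
    rw [zero_mul] at hδ
    exact zero_ne_one hδ
  have hδi : δ⁻¹ * δ⁻¹ ^ q = 1 := by rw [inv_pow, ← mul_inv, hδ, inv_one]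
  have key : ∃ c : Fin 3 → F, (∀ k, c k * c (θ k) ^ q = 1) ∧ ∏ k, c k = 1 ∧ c 2 = δ := by
    rcases ho with ⟨-, rfl⟩ | ⟨-, rfl⟩
    · refine ⟨![δ⁻¹, 1, δ], fun k => ?_, ?_, rfl⟩
      · fin_cases k
        · exact hδi
        · show (1 : F) * 1 ^ q = 1
          rw [one_pow, mul_one]
        · exact hδ
      · rw [Fin.prod_univ_three]
        show δ⁻¹ * 1 * δ = 1
        rw [mul_one, inv_mul_cancel₀ hδ0]
    · obtain ⟨s, hs0, hs⟩ := hilb hF hδi
      have hsq := pow_ne_zero q hs0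
      refine ⟨![s, (s ^ q)⁻¹, δ], fun k => ?_, ?_, rfl⟩
      · fin_cases k
        · show s * (s ^ q)⁻¹ ^ q = 1
          rw [inv_pow, pow_q_pow_q hF, mul_inv_cancel₀ hs0]
        · show (s ^ q)⁻¹ * s ^ q = 1
          exact inv_mul_cancel₀ hsq
        · show δ * δ ^ q = 1
          exact hδ
      · rw [Fin.prod_univ_three]
        show s * (s ^ q)⁻¹ * δ = 1
        have : s * (s ^ q)⁻¹ = δ⁻¹ := by
          rw [← div_eq_mul_inv, div_eq_iff hsq]
          exact hs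
        rw [this, inv_mul_cancel₀ hδ0]
  obtain ⟨c, hc, hp, hc2⟩ := key
  obtain ⟨g, hg⟩ := exists_gu hF h (σ := 1) (fun k => rfl) hc
  have hdet : (gm g).det = 1 := by
    rw [det_of_diag hq h (A := gm g) (c := c) hg, hp]
  have hm : Mono θ j (mat (toSU g hdet)) 1 := fun k => ⟨c k, coef_ne h hc k, hg k⟩
  refine ⟨⟨toSU g hdet, 1, hm, rfl⟩, hm, ?_⟩
  have h1 := (mul_two ho.two hm rfl).1
  have h2 := hg 2
  rw [Perm.one_apply, fb_two ho.two] at h2
  have h3 := congrFun (h1.symm.trans h2) 2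
  simp only [Pi.smul_apply, Pi.single_eq_same, smul_eq_mul, mul_one] at h3
  rw [← hc2, ← h3]

omit h in
/-- a norm-one element which is not a square of such -/
theorem exists_delta : ∃ δ : F, δ * δ ^ q = 1 ∧ δ ^ ((q + 1) / 2) ≠ 1 := by
  have hodd : q % 2 = 1 := by rcases ho with ⟨h1, -⟩ | ⟨h1, -⟩ <;> omega
  have hq0 := q_pos hF
  obtain ⟨m, hm⟩ : ∃ m, q = 2 * m + 1 := ⟨q / 2, by omega⟩
  have h2 : (2 : F) ≠ 0 := by
    intro h0
    have h1' : ringChar F ∣ 2 := (ringChar.spec F 2).1 (by exact_mod_cast h0)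
    have h3 : ringChar F = 2 := by
      rcases (Nat.dvd_prime Nat.prime_two).1 h1' with h4 | h4
      · exact absurd h4 (CharP.ringChar_ne_one)
      · exact h4
    have h4 := FiniteField.even_card_of_char_two h3
    rw [hF, hm, Nat.pow_mod] at h4
    have : (2 * m + 1) % 2 = 1 := by omega
    rw [this] at h4
    omega
  obtain ⟨a, ha0, ha⟩ := PslA.exists_nonsq h2
  have hc : Fintype.card F - 1 = (q - 1) * (q + 1) := by
    rw [hF, hm]
    have : (2 * m + 1) ^ 2 - 1 = (2 * m) * (2 * m + 2) := by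
      zify [Nat.one_le_pow 2 (2 * m + 1) (by omega)]
      ring
    rw [this]
    congr 1
  refine ⟨a ^ (q - 1), ?_, ?_⟩
  · rw [← pow_succ', ← pow_mul, ← hc]
    exact FiniteField.pow_card_sub_one_eq_one a ha0
  · rw [← pow_mul]
    intro h3
    apply ha
    have h4 : (q - 1) * ((q + 1) / 2) = Fintype.card F / 2 := by
      rw [hF, hm]
      have e1 : (2 * m + 1 + 1) / 2 = m + 1 := by omega
      have e2 : (2 * m + 1) ^ 2 = 2 * (2 * m * (m + 1)) + 1 := by ring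
      have e3 : 2 * m + 1 - 1 = 2 * m := by omega
      rw [e1, e2, e3]
      generalize 2 * m * (m + 1) = t
      omega
    rw [← h4]
    exact h3

theorem entry_pm (x : N3 q θ j) : (mat (x : SU 3 F q)) 2 2 ^ (2 * ((q + 1) / 2)) = 1 := by
  have hodd : q % 2 = 1 := by rcases ho with ⟨h1, -⟩ | ⟨h1, -⟩ <;> omega
  obtain ⟨σ, hσ, hσ2⟩ := mem_N3.1 x.2
  have h1 := entry_norm hF h ho.two hσ hσ2
  have h2 : 2 * ((q + 1) / 2) = q + 1 := by omega
  rw [h2, h1]

omit ho in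
theorem comm_of {x : N3 q θ j} {σ : Perm (Fin 3)} (hσ : Mono θ j (mat (x : SU 3 F q)) σ) (k : Fin 3) :
    σ (θ k) = θ (σ k) :=
  hσ.comm (q_pos hF).ne' h (fun u v => (LieClassical.HermBasic.mem_SU_iff _).1 x.1.2 u v) k

/-- **outer automorphisms of `PSU_3(q)`, for one frame** -/
theorem ext_frame (hq2 : q ≠ 2) (τ : MulAut (PSU 3 F q)) (ht : TwoPow τ) (hni : ¬ IsInn τ) : D3 (AutExt τ) := by
  have hq : q ≠ 0 := (q_pos hF).ne'
  have hθ := ho.two
  have hsimple : IsSimpleGroup (PSU 3 F q) := Cfsg.Agent.S0283.result hF 3 le_rfl (fun h => hq2 h.2)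
  obtain ⟨A, ρ, rfl⟩ := Cfsg.Agent.ClassicalGeometry.PSUAutMain.exists_toAut hF le_rfl (fun h => hq2 h.2) τ
  obtain ⟨s, d, hd, hsd⟩ := exists_conj hF h (by norm_num) A ρ
  obtain ⟨a0, ha0⟩ := exists_su hF h (by norm_num) (σ := swap 0 1) (by
    rcases ho with ⟨-, h4⟩ | ⟨-, h4⟩
    · rw [h4]; decide
    · rw [h4]; decide)
  obtain ⟨δ, hδ, hδ1⟩ := exists_delta hF ho
  obtain ⟨b, hb, hb'⟩ := exists_dg hF h ho hδ
  let a : N3 q θ j := ⟨a0, _, ha0, by decide⟩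
  have e1 : (f3 hq h hθ ((q + 1) / 2) a).1 = swap 0 1 := (f3_fst a).1.unique hq h ha0
  have e2 : (f3 hq h hθ ((q + 1) / 2) b).1 = 1 := (f3_fst b).1.unique hq h hb
  have hN : ∀ x ∈ N3 q θ j, semiConj d ρ x ∈ N3 q θ j := by
    intro x hx
    obtain ⟨σ, h3, h4⟩ := mem_N3.1 hx
    exact mem_N3.2 ⟨σ, mono_semi h hd ρ (comm_of hF h (x := ⟨x, hx⟩) h3) h3, h4⟩
  refine d3_of_cover_sq (pr 3 F q) pr_surjective (N3 q θ j) (odd_index_N3 hF h ho) (f3 hq h hθ ((q + 1) / 2)) ?_ _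
    ht hni s (semiConj d ρ) ?_ hN ?_ ?_ ?_ a b ?_ ?_ ?_ inferInstance
  · intro x hx
    obtain ⟨c, hc, hx'⟩ := exists_scalar_of_pr_eq hF le_rfl (g := 1) (g' := (x : SU 3 F q)) (by rw [hx, map_one])
    have hc0 : c ≠ 0 := by
      rintro rfl
      rw [zero_mul] at hc
      exact zero_ne_one hc
    have hx2 : ∀ y, mat (x : SU 3 F q) *ᵥ y = c • y := by
      intro y
      have h3 := hx' y
      rw [act_def, act_def, mat_one, one_mulVec] at h3
      exact h3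
    have hm : Mono θ j (mat (x : SU 3 F q)) 1 := fun k => ⟨c, hc0, by rw [hx2]; rfl⟩
    have hcc : (mat (x : SU 3 F q)) 2 2 = c := by
      have h3 := (mul_two hθ hm rfl).1
      rw [hx2] at h3
      have h4 := congrFun h3 2
      simp only [Pi.smul_apply, Pi.single_eq_same, smul_eq_mul, mul_one] at h4
      exact h4.symm
    have hc3 : c ^ 3 = 1 := by
      have h3 : (mat (x : SU 3 F q)).det = 1 := x.1.1.2
      rw [det_of_diag hq h (A := mat (x : SU 3 F q)) (c := fun _ => c) (fun k => hx2 _), Finset.prod_const,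
        Finset.card_univ, Fintype.card_fin] at h3
      exact h3
    rw [← map_one (f3 hq h hθ ((q + 1) / 2))]
    refine f3_eq (σ := 1) hm Mono.one ?_
    have h5 : (mat ((1 : N3 q θ j) : SU 3 F q)) 2 2 = (1 : F) := Matrix.one_apply_eq 2
    rw [h5, one_pow]
    rcases pm_one (entry_pm hF h ho x) with h6 | h6
    · exact h6
    · exfalso
      have h7 : (c ^ ((q + 1) / 2)) ^ 3 = 1 := by rw [← pow_mul, mul_comm, pow_mul, hc3, one_pow]
      rw [hcc] at h6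
      rw [h6] at h7
      apply h.two
      linear_combination -h7
  · intro x
    rw [hsd, toAut_pr]
  · intro x
    obtain ⟨h3, h4⟩ := f3_fst (hq := hq) (h := h) (hθ := hθ) (e := (q + 1) / 2) x
    have h5 := comm_of hF h h3
    refine f3_eq (mono_semi h hd ρ h5 h3) h3 ?_
    show (mat (semiConj d ρ (x : SU 3 F q))) 2 2 ^ ((q + 1) / 2) = _
    rw [entry_semi h ho hd ρ h3 h4 h5, ← map_pow]
    rcases pm_one (entry_pm hF h ho x) with h6 | h6
    · rw [h6, map_one]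
    · rw [h6, map_neg, map_one]
  · intro x
    refine Prod.ext (perm_sq _ (f3_fst x).2) (Units.ext ?_)
    show ((f3 hq h hθ ((q + 1) / 2) x).2 : F) * ((f3 hq h hθ ((q + 1) / 2) x).2 : F) = 1
    rw [f3_snd]
    rcases pm_one (entry_pm hF h ho x) with h6 | h6
    · rw [h6, one_mul]
    · rw [h6]; ring
  · intro x y
    exact Prod.ext (perm_comm _ _ (f3_fst x).2 (f3_fst y).2) (mul_comm _ _)
  · intro h3
    rw [h3] at e1
    exact absurd (show (1 : Perm (Fin 3)) = swap 0 1 from e1) (by decide)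
  · intro h3
    have h4 := f3_snd (hq := hq) (h := h) (hθ := hθ) (e := (q + 1) / 2) b
    rw [h3, hb'] at h4
    exact hδ1 h4.symm
  · intro h3
    rw [h3, e2] at e1
    exact absurd e1 (by decide)

end main

/-- **outer automorphisms of `PSU_3(q)`, `q` odd** -/
theorem ext_psu3 {F : Type*} [Field F] [Fintype F] {q : ℕ} (hF : Fintype.card F = q ^ 2) (hq : Odd q)
    (τ : MulAut (PSU 3 F q)) (ht : TwoPow τ) (hni : ¬ IsInn τ) : D3 (AutExt τ) := by
  have h2 : (2 : F) ≠ 0 := by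
    intro h0
    have h1 : ringChar F ∣ 2 := (ringChar.spec F 2).1 (by exact_mod_cast h0)
    have h3 : ringChar F = 2 := by
      rcases (Nat.dvd_prime Nat.prime_two).1 h1 with h4 | h4
      · exact absurd h4 (CharP.ringChar_ne_one)
      · exact h4
    have h4 := FiniteField.even_card_of_char_two h3
    rw [hF] at h4
    have h5 : Odd (q ^ 2) := hq.pow
    rw [Nat.odd_iff] at h5
    omega
  have hq2 : q ≠ 2 := by
    rintro rfl
    exact absurd hq (by decide)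
  have hq4 : q % 4 = 1 ∨ q % 4 = 3 := by
    rw [Nat.odd_iff] at hq
    omega
  rcases hq4 with hq4 | hq4
  · obtain ⟨j, hj⟩ : IsSquare (-1 : F) := by
      rw [FiniteField.isSquare_neg_one_iff, hF]
      have : q ^ 2 % 4 = 1 := by rw [Nat.pow_mod, hq4]
      omega
    have hj2 : j ^ 2 = -1 := by rw [pow_two, ← hj]
    have h : Fd q (swap (0 : Fin 3) 1) j := by
      refine ⟨by decide, fun _ _ => hj2, fun _ _ => ?_, h2⟩
      obtain ⟨m, rfl⟩ : ∃ m, q = 4 * m + 1 := ⟨q / 4, by omega⟩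
      rw [pow_succ, pow_mul, show 4 = 2 * 2 from rfl, pow_mul, hj2]
      simp
    exact ext_frame hF h (Or.inr ⟨hq4, rfl⟩) hq2 τ ht hni
  · have h : Fd q (1 : Perm (Fin 3)) (0 : F) :=
      ⟨fun k => rfl, fun k hk => absurd rfl hk, fun k hk => absurd rfl hk, h2⟩
    exact ext_frame hF h (Or.inl ⟨hq4, rfl⟩) hq2 τ ht hni

end Cfsg.Agent.H829.K547.PsuC
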