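import Cfsg.Agent.H829.K547.PslB
import Cfsg.Agent.H829.K547.PsuC

/-!
# S4547, QO-EXT3: outer 2-automorphisms of `PSL_3(q)` and `PSU_3(q)`, `q` odd (helper829)
-/

set_option autoImplicit false

namespace Cfsg.Agent.H829.K547

open Cfsg Cfsg.Agent.H821.K547

/-- the Sylow 2-subgroups of `PSL_3(q)<τ>`, `q` odd, `τ` an outer 2-automorphism, need three generators -/
theorem ext_psl3 {F : Type*} [Field F] [Fintype F] (ho : Odd (Fintype.card F))
    (τ : MulAut (Matrix.ProjectiveSpecialLinearGroup (Fin 3) F)) (ht : TwoPow τ) (hni : ¬ IsInn τ) :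
    D3 (AutExt τ) := by
  have h4 : Fintype.card F % 4 = 1 ∨ Fintype.card F % 4 = 3 := by
    rw [Nat.odd_iff] at ho
    omega
  rcases h4 with h4 | h4
  · exact PslA.ext_one h4 τ ht hni
  · exact PslB.ext_three h4 τ ht hni

/-- the Sylow 2-subgroups of `PSU_3(q)<τ>`, `q` odd, `τ` an outer 2-automorphism, need three generators -/
theorem ext_psu3 {F : Type*} [Field F] [Fintype F] {q : ℕ} (hF : Fintype.card F = q ^ 2) (hq : Odd q)
    (τ : MulAut (PSU 3 F q)) (ht : TwoPow τ) (hni : ¬ IsInn τ) : D3 (AutExt τ) :=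
  PsuC.ext_psu3 hF hq τ ht hni

end Cfsg.Agent.H829.K547
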