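import Cfsg.Agent.H829.K547.Rows
import Cfsg.Agent.H951.K547.Gen
import Cfsg.Prelude.Def_LieTypeChar

/-!
# S4547, row QO-EXT-PO

`D3 (AutExt τ)` for every outer automorphism `τ` of 2-power order modulo inner automorphisms of a simple orthogonal
group over a field of odd order.
-/

set_option autoImplicit false

namespace Cfsg.Agent.H829.K547

open Cfsg Cfsg.Agent.H821.K547
open scoped commutatorElement

universe u

theorem invTool : InvTool.{u, 0} := by
  intro S _ _ _ hc τ h1 h2 s M hM hst Y _ _ f hf y hy hY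
  have hp : commutator S = ⊤ := by
    rcases (inferInstance : (commutator S).Normal).eq_bot_or_eq_top with h | h
    · exfalso
      have hcomm : ∀ a b : S, a * b = b * a := fun a b => by
        have h3 : ⁅a, b⁆ ∈ commutator S := Subgroup.commutator_mem_commutator (Subgroup.mem_top a) (Subgroup.mem_top b)
        rw [h, Subgroup.mem_bot, commutatorElement_eq_one_iff_mul_comm] at h3
        exact h3
      obtain ⟨x, hx⟩ := exists_ne (1 : S)
      apply hx
      have h4 : x ∈ Subgroup.center S := Subgroup.mem_center_iff.2 fun g => hcomm g x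
      rwa [hc, Subgroup.mem_bot] at h4
    · exact h
  refine Cfsg.Agent.H951.K547.gen_inner hc hp τ h1 h2 s M hM.not_two_dvd_nat hst f hf y ?_ hY
  rintro ⟨a, ha⟩ ⟨b, hb⟩ hab
  have := hy a ha
  have e : (⟨b, hb⟩ : ↥M) = ⟨(MulAut.conj s * τ) a, hst a ha⟩ := Subtype.ext hab
  rw [e]
  exact this

/-- **`PΩ_{2m+1}(q)`.** -/
theorem ext_odd_main {F : Type u} [Field F] [Fintype F] (hF : Odd (Fintype.card F)) {m : ℕ} (hm : 3 ≤ m)
    (τ : MulAut (POmega F (quadFormOdd m F))) (h1 : TwoPow τ) (h2 : ¬ IsInn τ) : D3 (AutExt τ) :=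
  ext_pOmegaOdd invTool hF hm τ h1 h2

/-- **`PΩ⁺_{2m}(q)`, q odd.** -/
theorem ext_plus_main {F : Type u} [Field F] [Fintype F] (hF : Odd (Fintype.card F)) {m : ℕ} (hm : 4 ≤ m)
    (τ : MulAut (POmega F (quadFormPlus m F))) (h1 : TwoPow τ) (h2 : ¬ IsInn τ) : D3 (AutExt τ) :=
  ext_pOmegaPlus invTool hF hm τ h1 h2

/-- **`PΩ⁻_{2m}(q)`, q odd.** -/
theorem ext_minus_main {F : Type u} [Field F] [Fintype F] (hF : Odd (Fintype.card F)) {m : ℕ} (hm : 4 ≤ m) {a b : F}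
    (hab : ∀ z₁ z₂ : F, z₁ ^ 2 + a * z₁ * z₂ + b * z₂ ^ 2 = 0 → z₁ = 0 ∧ z₂ = 0)
    (τ : MulAut (POmega F (quadFormMinus (m - 1) F a b))) (h1 : TwoPow τ) (h2 : ¬ IsInn τ) : D3 (AutExt τ) :=
  ext_pOmegaMinus invTool hF hm hab τ h1 h2

theorem odd_card_of_charP {F : Type*} [Field F] [Fintype F] {p : ℕ} [CharP F p] (hp : p ≠ 2) : Odd (Fintype.card F) := by
  rw [← Nat.not_even_iff_odd, Nat.even_iff]
  intro h
  have h2 := FiniteField.even_card_iff_char_two.2 h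
  have h3 := ringChar.eq F p
  exact hp (h3.symm.trans h2)

/-- the family `PΩ_{2m+1}(q)` -/
theorem ext_of_isPOmegaOdd {G : Type u} [Group G] (h : IsPOmegaOdd G) (τ : MulAut G) (h1 : TwoPow τ)
    (h2 : ¬ IsInn τ) : D3 (AutExt τ) := by
  obtain ⟨F, _, _, m, hm, hF, ⟨e⟩⟩ := h
  have : Finite (isometryGroup F (quadFormOdd m F)) := inferInstance
  exact ExtD3.congr e.symm (ext_pOmegaOdd invTool hF hm) τ h1 h2

theorem ext_of_isPOmegaOddChar {p : ℕ} {G : Type u} [Group G] (h : IsPOmegaOddChar p G) (τ : MulAut G)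
    (h1 : TwoPow τ) (h2 : ¬ IsInn τ) : D3 (AutExt τ) := by
  obtain ⟨F, _, _, _, m, hm, hF, ⟨e⟩⟩ := h
  exact ext_of_isPOmegaOdd ⟨F, _, _, m, hm, hF, ⟨e⟩⟩ τ h1 h2

theorem ext_of_isPOmegaPlusChar {p : ℕ} (hp : p ≠ 2) {G : Type u} [Group G] (h : IsPOmegaPlusChar p G)
    (τ : MulAut G) (h1 : TwoPow τ) (h2 : ¬ IsInn τ) : D3 (AutExt τ) := by
  obtain ⟨F, _, _, _, m, hm, ⟨e⟩⟩ := h
  have : Finite (isometryGroup F (quadFormPlus m F)) := inferInstance
  exact ExtD3.congr e.symm (ext_pOmegaPlus invTool (odd_card_of_charP hp) hm) τ h1 h2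

theorem ext_of_isPOmegaMinusChar {p : ℕ} (hp : p ≠ 2) {G : Type u} [Group G] (h : IsPOmegaMinusChar p G)
    (τ : MulAut G) (h1 : TwoPow τ) (h2 : ¬ IsInn τ) : D3 (AutExt τ) := by
  obtain ⟨F, _, _, _, m, a, b, hm, hab, ⟨e⟩⟩ := h
  have : Finite (isometryGroup F (quadFormMinus (m - 1) F a b)) := inferInstance
  exact ExtD3.congr e.symm (ext_pOmegaMinus invTool (odd_card_of_charP hp) hm hab) τ h1 h2

end Cfsg.Agent.H829.K547
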