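import Cfsg.Agent.H829.K547.Main
import Cfsg.Agent.H716.K547.RkTwo

/-!
# The two cases: complete frames (`m ≥ 4` blocks, `W = 0`) and frames with a rest

* `d3_perm` : `Y = Sym(m)`, `m ≥ 4`;
* `d3_two` : two homomorphisms: the sign of the permutation of the blocks and the determinant on the rest.
-/

set_option autoImplicit false

namespace Cfsg.Agent.H829.K547

open QuadraticMap Cfsg.Agent.LieClassical.OrthCore Cfsg.Agent.LieClassical.OrthTrans
  Cfsg.Agent.LieClassical.OrthSimple Cfsg.Agent.ClassicalGeometry.OrthSemi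
  Cfsg.Agent.ClassicalGeometry.OrthSemiCount Cfsg.Agent.ClassicalGeometry.OrthAut1 Cfsg.Agent.H821.K547

universe u v

section Gen

variable {F V : Type u} [Field F] [AddCommGroup V] [Module F V] {Q : QuadraticForm F V}

theorem scalar_of_center (hG : Good Q) {g : V ≃ₗ[F] V} (hg : g ∈ E Q)
    (hc : (⟨g, hg⟩ : ↥(E Q)) ∈ Subgroup.center ↥(E Q)) : ∃ a : F, a ≠ 0 ∧ ∀ v, g v = a • v := by
  have h1 : conjE Q (iO Q ⟨g, E_le_O hg⟩) = 1 := by
    ext k : 2
    change conjLin (iO Q ⟨g, E_le_O hg⟩) k.1 = k.1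
    have h2 : (⟨g, hg⟩ : ↥(E Q)) * k * (⟨g, hg⟩ : ↥(E Q))⁻¹ = k := by
      rw [mul_inv_eq_iff_eq_mul]
      exact (Subgroup.mem_center_iff.1 hc k).symm
    exact congrArg Subtype.val h2
  exact exists_scalar_of_conjE hG _ h1

theorem det_of_mem_E (hG : Good Q) {g : V ≃ₗ[F] V} (hg : g ∈ E Q) : LinearEquiv.det g = 1 := by
  let χ : ↥(E Q) →* Fˣ := (LinearEquiv.det : (V ≃ₗ[F] V) →* Fˣ).comp (E Q).subtype
  have h1 : commutator ↥(E Q) ≤ χ.ker := by
    rw [commutator_def, Subgroup.commutator_le]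
    intro a _ b _
    rw [MonoidHom.mem_ker, map_commutatorElement, commutatorElement_eq_one_iff_mul_comm]
    exact mul_comm _ _
  rw [commutator_E hG] at h1
  exact h1 (Subgroup.mem_top (⟨g, hg⟩ : ↥(E Q)))

/-- a homomorphism with values `±1` as a homomorphism to `ℤ/2` -/
noncomputable def toZ {G R : Type*} [Group G] [Monoid R] [HasDistribNeg R] (χ : G →* R) (h1 : (1 : R) ≠ -1)
    (h : ∀ g, χ g = 1 ∨ χ g = -1) : G →* Multiplicative (ZMod 2) := by
  classical
  exact
  { toFun := fun g => Multiplicative.ofAdd (if χ g = 1 then 0 else 1)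
    map_one' := by
      rw [map_one, if_pos rfl]
      rfl
    map_mul' := fun a b => by
      have h1' : (-1 : R) ≠ 1 := fun hh => h1 hh.symm
      rw [← ofAdd_add]
      congr 1
      rcases h a with ha | ha <;> rcases h b with hb | hb <;> rw [map_mul, ha, hb]
      · simp
      · simp [h1']
      · simp [h1']
      · simp only [neg_mul, one_mul, neg_neg, if_true, if_neg h1']
        decide }

open Classical in
theorem toZ_def {G R : Type*} [Group G] [Monoid R] [HasDistribNeg R] (χ : G →* R) (h1 : (1 : R) ≠ -1)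
    (h : ∀ g, χ g = 1 ∨ χ g = -1) (g : G) :
    toZ χ h1 h g = Multiplicative.ofAdd (if χ g = 1 then 0 else 1) := by
  rfl

theorem toZ_one {G R : Type*} [Group G] [Monoid R] [HasDistribNeg R] {χ : G →* R} {h1 : (1 : R) ≠ -1}
    {h : ∀ g, χ g = 1 ∨ χ g = -1} {g : G} (hg : χ g = 1) : toZ χ h1 h g = 1 := by
  rw [toZ_def, if_pos hg]
  rfl

theorem toZ_neg {G R : Type*} [Group G] [Monoid R] [HasDistribNeg R] {χ : G →* R} {h1 : (1 : R) ≠ -1}
    {h : ∀ g, χ g = 1 ∨ χ g = -1} {g : G} (hg : χ g = -1) : toZ χ h1 h g = Multiplicative.ofAdd 1 := by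
  rw [toZ_def, if_neg (by rw [hg]; exact fun hh => h1 hh.symm)]

theorem toZ_congr {G R : Type*} [Group G] [Monoid R] [HasDistribNeg R] {χ : G →* R} {h1 : (1 : R) ≠ -1}
    {h : ∀ g, χ g = 1 ∨ χ g = -1} {g k : G} (hg : χ g = χ k) : toZ χ h1 h g = toZ χ h1 h k := by
  rcases h k with hk | hk
  · rw [toZ_one hk, toZ_one (hg.trans hk)]
  · rw [toZ_neg hk, toZ_neg (hg.trans hk)]

/-- two homomorphisms to `ℤ/2` -/
def pair {G : Type*} [Group G] (f g : G →* Multiplicative (ZMod 2)) : G →* Multiplicative (Fin 2 → ZMod 2) where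
  toFun z := Multiplicative.ofAdd ![(f z).toAdd, (g z).toAdd]
  map_one' := by
    rw [map_one f, map_one g]
    apply Multiplicative.toAdd.injective
    funext i
    fin_cases i <;> rfl
  map_mul' a b := by
    rw [map_mul f, map_mul g]
    apply Multiplicative.toAdd.injective
    funext i
    fin_cases i <;> rfl

theorem pair_apply {G : Type*} [Group G] (f g : G →* Multiplicative (ZMod 2)) (z : G) :
    pair f g z = Multiplicative.ofAdd ![(f z).toAdd, (g z).toAdd] := rfl

theorem rk_two_self (R : Sylow 2 (Multiplicative (Fin 2 → ZMod 2))) : Rk 2 R := by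
  have hp : IsPGroup 2 (Multiplicative (Fin 2 → ZMod 2)) := by
    intro x
    refine ⟨1, ?_⟩
    revert x
    decide
  have hR : (R : Subgroup (Multiplicative (Fin 2 → ZMod 2))) = ⊤ :=
    (R.is_maximal' (hp.of_equiv Subgroup.topEquiv.symm) le_top).symm
  refine ⟨(R : Subgroup (Multiplicative (Fin 2 → ZMod 2))).subtype, fun x => ?_⟩
  exact ⟨⟨x, by rw [hR]; exact Subgroup.mem_top x⟩, rfl⟩

end Gen

variable {F U W : Type u} [Field F] [AddCommGroup U] [Module F U] [AddCommGroup W] [Module F W] {m : ℕ}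
  {p : QuadraticForm F U} {w : QuadraticForm F W}

theorem phO_of_scalar [Nontrivial U] {g : ↥(TO p w m)} {a : F} (ha : a ≠ 0) (h : ∀ v, g.1 v = a • v) :
    phO p w m g = 1 := by
  refine phO_eq fun i v => ?_
  have h1 := (ph_spec (U := U) (W := W) (m := m) ⟨(scal (QM p w m) (Units.mk0 a ha)).1, scal_mem_Fr _⟩)
  rw [h v]
  constructor
  · rintro ⟨h1, h2⟩
    refine ⟨?_, fun j hj => ?_⟩
    · have h3 : a • v.2 = 0 := h1
      exact (smul_eq_zero.1 h3).resolve_left ha
    · have h3 : a • v.1 j = 0 := h2 j hj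
      exact (smul_eq_zero.1 h3).resolve_left ha
  · rintro ⟨h1, h2⟩
    refine ⟨?_, fun j hj => ?_⟩
    · change a • v.2 = 0
      rw [h1, smul_zero]
    · change a • v.1 j = 0
      rw [h2 j hj, smul_zero]

theorem d3_perm (inv : InvTool.{u, 0}) [Finite U] [Finite W] [Nontrivial U] (hG : Good (QM p w m))
    (hodd : Odd ((Fr U W m).subgroupOf (Gam (QM p w m))).index) (hpsi : Odd (Psi (QM p w m)).range.index)
    (hu : ∀ c : F, ∃ u, p u = c) (hm : 4 ≤ m) (τ : MulAut (P (QM p w m))) (hτ : TwoPow τ) (hn : ¬ IsInn τ) :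
    D3 (AutExt τ) := by
  have hfd : FiniteDimensional F ((Fin m → U) × W) :=
    Module.finite_of_finrank_pos (by have := hG.dim; omega)
  refine d3_of_frame inv hG hodd hpsi (phO p w m) ?_ ?_ ?_ (Cfsg.Agent.H716.K547.rk_two_perm hm) τ hτ hn
  · intro π
    obtain ⟨h, hE, he⟩ := exists_mem_E_eq hG ⟨0, by omega⟩ hu (phO p w m) (fun a ha => phO_el1 _ ha)
      ⟨el (fun _ => 1) π 1, el_mem_TO (fun _ => (O p).one_mem) π (O w).one_mem⟩
    exact ⟨h, hE, he.trans (phO_el (fun _ => (O p).one_mem) π (O w).one_mem)⟩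
  · intro g hg hc
    obtain ⟨a, ha, hs⟩ := scalar_of_center hG hg hc
    exact phO_of_scalar ha hs
  · intro t ht
    exact ⟨_, fun g => phO_conj ht g.2⟩

theorem d3_two {κ : Type} [Fintype κ] [DecidableEq κ] {w : QuadraticForm F (κ → F)} (inv : InvTool.{u, 0})
    [Finite F] [Finite U] [Nontrivial U] (h2 : (2 : F) ≠ 0) (hG : Good (QM p w m)) (hp : Nondeg p) (hw : Nondeg w)
    (hU : Module.finrank F U = 2)
    (hodd : Odd ((Fr U (κ → F) m).subgroupOf (Gam (QM p w m))).index) (hpsi : Odd (Psi (QM p w m)).range.index)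
    (hu : ∀ c : F, ∃ u, p u = c) (hm : 2 ≤ m) {b : (κ → F) ≃ₗ[F] (κ → F)} (hb : b ∈ O w)
    (hdb : LinearMap.det (b : (κ → F) →ₗ[F] (κ → F)) = -1)
    (τ : MulAut (P (QM p w m))) (hτ : TwoPow τ) (hn : ¬ IsInn τ) : D3 (AutExt τ) := by
  have hfd : FiniteDimensional F ((Fin m → U) × (κ → F)) :=
    Module.finite_of_finrank_pos (by have := hG.dim; omega)
  have hfU : FiniteDimensional F U := Module.finite_of_finrank_pos (by omega)
  have hne : (1 : F) ≠ -1 := by
    intro h
    apply h2
    linear_combination h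
  let f1 : ↥(TO p w m) →* Multiplicative (ZMod 2) :=
    toZ ((Equiv.Perm.sign (α := Fin m)).comp (phO p w m)) (by decide) (fun g => Int.units_eq_one_or _)
  let f2 : ↥(TO p w m) →* Multiplicative (ZMod 2) := toZ (dw hp) hne (dw_eq hp hw)
  have key : ∀ g k : ↥(TO p w m), Equiv.Perm.sign (phO p w m g) = Equiv.Perm.sign (phO p w m k) →
      dw hp g = dw hp k → pair f1 f2 g = pair f1 f2 k := by
    intro g k h3 h4
    rw [pair_apply, pair_apply]
    have e1 : f1 g = f1 k := toZ_congr h3
    have e2 : f2 g = f2 k := toZ_congr h4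
    rw [e1, e2]
  have hone : ∀ g : ↥(TO p w m), phO p w m g = 1 → dw hp g = 1 → pair f1 f2 g = 1 := by
    intro g h3 h4
    rw [← map_one (pair f1 f2)]
    exact key g 1 (by rw [h3, map_one (phO p w m)]) (by rw [h4, map_one (dw hp)])
  refine d3_of_frame inv hG hodd hpsi (pair f1 f2) ?_ ?_ ?_ rk_two_self τ hτ hn
  · intro y
    -- an element of `TO` with given values
    obtain ⟨g, hg⟩ : ∃ g : ↥(TO p w m), pair f1 f2 g = y := by
      obtain ⟨π, b', hb', hπ, hd⟩ : ∃ (π : Equiv.Perm (Fin m)) (b' : (κ → F) ≃ₗ[F] (κ → F)) (_ : b' ∈ O w),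
          Equiv.Perm.sign π = (if (y.toAdd 0) = 0 then 1 else -1) ∧
          LinearMap.det (b' : (κ → F) →ₗ[F] (κ → F)) = (if (y.toAdd 1) = 0 then 1 else -1) := by
        have hsw : Equiv.Perm.sign (Equiv.swap (⟨0, by omega⟩ : Fin m) ⟨1, by omega⟩) = -1 :=
          Equiv.Perm.sign_swap (by simp)
        by_cases h0 : (y.toAdd 0) = 0 <;> by_cases h1 : (y.toAdd 1) = 0
        · exact ⟨1, 1, (O w).one_mem, by rw [if_pos h0, map_one], by rw [if_pos h1]; exact LinearMap.det_id⟩
        · exact ⟨1, b, hb, by rw [if_pos h0, map_one], by rw [if_neg h1]; exact hdb⟩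
        · exact ⟨_, 1, (O w).one_mem, by rw [if_neg h0]; exact hsw, by rw [if_pos h1]; exact LinearMap.det_id⟩
        · exact ⟨_, b, hb, by rw [if_neg h0]; exact hsw, by rw [if_neg h1]; exact hdb⟩
      refine ⟨⟨el (fun _ => 1) π b', el_mem_TO (fun _ => (O p).one_mem) π hb'⟩, ?_⟩
      have e1 : phO p w m ⟨el (fun _ => 1) π b', el_mem_TO (fun _ => (O p).one_mem) π hb'⟩ = π :=
        phO_el (fun _ => (O p).one_mem) π hb'
      have e2 : dw hp (⟨el (fun _ => 1) π b', el_mem_TO (fun _ => (O p).one_mem) π hb'⟩ : ↥(TO p w m)) =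
          LinearMap.det (b' : (κ → F) →ₗ[F] (κ → F)) := by
        rw [dw_apply, Lw_el]
      have hval : ∀ c : ZMod 2, c = 0 ∨ c = 1 := by decide
      rw [pair_apply]
      apply Multiplicative.toAdd.injective
      funext i
      fin_cases i
      · change (f1 _).toAdd = y.toAdd 0
        rcases hval (y.toAdd 0) with h | h
        · rw [h] at hπ ⊢
          rw [if_pos rfl] at hπ
          have : f1 ⟨el (fun _ => 1) π b', el_mem_TO (fun _ => (O p).one_mem) π hb'⟩ = 1 := by
            apply toZ_one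
            rw [MonoidHom.comp_apply, e1, hπ]
          rw [this]
          rfl
        · rw [h] at hπ ⊢
          rw [if_neg (by decide)] at hπ
          have : f1 ⟨el (fun _ => 1) π b', el_mem_TO (fun _ => (O p).one_mem) π hb'⟩ =
              Multiplicative.ofAdd 1 := by
            apply toZ_neg
            rw [MonoidHom.comp_apply, e1, hπ]
          rw [this]
          rfl
      · change (f2 _).toAdd = y.toAdd 1
        rcases hval (y.toAdd 1) with h | h
        · rw [h] at hd ⊢
          rw [if_pos rfl] at hd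
          have : f2 ⟨el (fun _ => 1) π b', el_mem_TO (fun _ => (O p).one_mem) π hb'⟩ = 1 := by
            apply toZ_one
            rw [e2, hd]
          rw [this]
          rfl
        · rw [h] at hd ⊢
          rw [if_neg (by decide)] at hd
          have : f2 ⟨el (fun _ => 1) π b', el_mem_TO (fun _ => (O p).one_mem) π hb'⟩ =
              Multiplicative.ofAdd 1 := by
            apply toZ_neg
            rw [e2, hd]
          rw [this]
          rfl
    obtain ⟨h, hE, he⟩ := exists_mem_E_eq hG ⟨0, by omega⟩ hu (pair f1 f2)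
      (fun a ha => hone _ (phO_el1 _ ha) (dw_el1 hp _ ha)) g
    exact ⟨h, hE, he.trans hg⟩
  · intro g hg hc
    obtain ⟨a, ha, hs⟩ := scalar_of_center hG hg hc
    refine hone g (phO_of_scalar ha hs) ?_
    -- `a ^ 2 = 1`, `a ^ dim V = 1`
    have ha2 : a ^ 2 = 1 := by
      obtain ⟨x, y, hxy⟩ := hG.exists_hyp
      have h3 : QM p w m (x + y) = 1 := by rw [Q_add, hxy.left, hxy.right, hxy.pair]; simp
      have h4 := g.2.1 (x + y)
      rw [hs, QuadraticMap.map_smul, h3] at h4
      rw [pow_two]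
      simpa using h4
    have hdet : a ^ Module.finrank F ((Fin m → U) × (κ → F)) = 1 := by
      have h3 := det_of_mem_E hG hg
      have h4 : (g.1 : ((Fin m → U) × (κ → F)) →ₗ[F] ((Fin m → U) × (κ → F))) = a • LinearMap.id :=
        LinearMap.ext hs
      have h5 := congrArg Units.val h3
      rw [LinearEquiv.coe_det, h4, LinearMap.det_smul, LinearMap.det_id, mul_one] at h5
      exact h5
    rw [Module.finrank_prod, Module.finrank_pi_fintype, Finset.sum_const, Finset.card_univ, Fintype.card_fin, hU,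
      smul_eq_mul, pow_add, mul_comm m, pow_mul, ha2, one_pow, one_mul] at hdet
    rw [dw_apply]
    have h6 : Lw g.1 = a • LinearMap.id := by
      refine LinearMap.ext fun v => ?_
      rw [Lw_apply, hs]
      rfl
    rw [h6, LinearMap.det_smul, LinearMap.det_id, mul_one]
    exact hdet
  · intro t ht
    refine ⟨1, fun g => ?_⟩
    rw [one_mul, inv_one, mul_one]
    refine key _ _ ?_ (dw_conj hp hw ht g.2)
    rw [phO_conj ht g.2, map_mul, map_mul, map_inv]
    exact mul_inv_cancel_comm _ _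

end Cfsg.Agent.H829.K547
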