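import Cfsg.Agent.H829.K547.PslA
import Cfsg.Agent.H716.K547.Sq

/-!
# S4547, QO-EXT3: outer automorphisms of `PSL_3(q)`, `q ≡ 3 mod 4` (helper829)

`N2` : the image of `GL_2(q)`; its quotient `PGL_2(q)`, on which the automorphisms act as inner automorphisms.
-/

set_option autoImplicit false

namespace Cfsg.Agent.H829.K547.PslB

open Matrix Equiv
open Cfsg.Agent.ClassicalGeometry.AutPSL.Root
open Cfsg.Agent.ClassicalGeometry.AutPSL.Auto
open Cfsg.Agent.ClassicalGeometry.AutPSL.Main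
open Cfsg.Agent.H183.OutPSL
open Cfsg.Agent.H716.K547 Cfsg.Agent.H821.K547

variable {F : Type*} [Field F]

/-- the block -/
def bk (x : Matrix (Fin 3) (Fin 3) F) : Matrix (Fin 2) (Fin 2) F := x.submatrix Fin.succ Fin.succ

omit [Field F] in
theorem bk_apply (x : Matrix (Fin 3) (Fin 3) F) (i j : Fin 2) : bk x i j = x i.succ j.succ := rfl

theorem bk_mul (x : Matrix (Fin 3) (Fin 3) F) {y : Matrix (Fin 3) (Fin 3) F} (hy : ∀ j : Fin 2, y 0 j.succ = 0) :
    bk (x * y) = bk x * bk y := by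
  ext i j
  rw [bk_apply, Matrix.mul_apply, Matrix.mul_apply, Fin.sum_univ_succ, hy, mul_zero, zero_add]
  rfl

theorem bk_one : bk (1 : Matrix (Fin 3) (Fin 3) F) = 1 := by
  ext i j
  rw [bk_apply, Matrix.one_apply, Matrix.one_apply]
  simp only [Fin.succ_inj]

/-- block diagonal matrices -/
def Bd (x : Matrix (Fin 3) (Fin 3) F) : Prop := (∀ j : Fin 2, x 0 j.succ = 0) ∧ ∀ i : Fin 2, x i.succ 0 = 0

theorem Bd.mul {x y : Matrix (Fin 3) (Fin 3) F} (hx : Bd x) (hy : Bd y) : Bd (x * y) := by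
  refine ⟨fun j => ?_, fun i => ?_⟩
  · rw [Matrix.mul_apply, Fin.sum_univ_succ, hy.1, mul_zero, zero_add]
    exact Finset.sum_eq_zero fun k _ => by rw [hx.1, zero_mul]
  · rw [Matrix.mul_apply, Fin.sum_univ_succ, hx.2, zero_mul, zero_add]
    exact Finset.sum_eq_zero fun k _ => by rw [hy.2, mul_zero]

theorem Bd.det {x : Matrix (Fin 3) (Fin 3) F} (hx : Bd x) : x.det = x 0 0 * (bk x).det := by
  have h1 := hx.1 0
  have h2 := hx.1 1
  have h3 := hx.2 0
  have h4 := hx.2 1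
  rw [Matrix.det_fin_three, Matrix.det_fin_two]
  simp only [bk_apply]
  change x 0 1 = 0 at h1
  change x 0 2 = 0 at h2
  change x 1 0 = 0 at h3
  change x 2 0 = 0 at h4
  rw [h1, h2]
  change _ = x 0 0 * (x 1 1 * x 2 2 - x 1 2 * x 2 1)
  ring

/-- the inverse is block diagonal -/
theorem Bd.inv {x : Matrix.SpecialLinearGroup (Fin 3) F} (hx : Bd (x : Matrix (Fin 3) (Fin 3) F)) :
    Bd ((x⁻¹ : Matrix.SpecialLinearGroup (Fin 3) F) : Matrix (Fin 3) (Fin 3) F) := by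
  have h1 := hx.1 0
  have h2 := hx.1 1
  have h3 := hx.2 0
  have h4 := hx.2 1
  change (x : Matrix (Fin 3) (Fin 3) F) 0 1 = 0 at h1
  change (x : Matrix (Fin 3) (Fin 3) F) 0 2 = 0 at h2
  change (x : Matrix (Fin 3) (Fin 3) F) 1 0 = 0 at h3
  change (x : Matrix (Fin 3) (Fin 3) F) 2 0 = 0 at h4
  rw [Matrix.SpecialLinearGroup.coe_inv, Matrix.adjugate_fin_three]
  refine ⟨fun j => ?_, fun i => ?_⟩
  · fin_cases j
    · simp [h1, h2]
    · simp [h1, h2]
  · fin_cases i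
    · simp [h3, h4]
    · simp [h3, h4]

variable (F) in
/-- the image of `GL_2` -/
def N2 : Subgroup (Matrix.SpecialLinearGroup (Fin 3) F) where
  carrier := {x | Bd (x : Matrix (Fin 3) (Fin 3) F)}
  one_mem' := ⟨fun j => Matrix.one_apply_ne (Fin.succ_ne_zero j).symm, fun i => Matrix.one_apply_ne (Fin.succ_ne_zero i)⟩
  mul_mem' := fun h h' => h.mul h'
  inv_mem' := fun h => h.inv

theorem mem_N2 {x : Matrix.SpecialLinearGroup (Fin 3) F} : x ∈ N2 F ↔ Bd (x : Matrix (Fin 3) (Fin 3) F) := Iff.rfl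

/-- the homomorphism onto `GL_2` -/
def bl : N2 F →* GL (Fin 2) F where
  toFun x := ⟨bk ((x : Matrix.SpecialLinearGroup (Fin 3) F) : Matrix (Fin 3) (Fin 3) F),
    bk (((x⁻¹ : N2 F) : Matrix.SpecialLinearGroup (Fin 3) F) : Matrix (Fin 3) (Fin 3) F), by
      rw [← bk_mul _ (mem_N2.1 (x⁻¹ : N2 F).2).1, ← Matrix.SpecialLinearGroup.coe_mul, ← Subgroup.coe_mul,
        mul_inv_cancel, Subgroup.coe_one, Matrix.SpecialLinearGroup.coe_one, bk_one], by
      rw [← bk_mul _ (mem_N2.1 x.2).1, ← Matrix.SpecialLinearGroup.coe_mul, ← Subgroup.coe_mul,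
        inv_mul_cancel, Subgroup.coe_one, Matrix.SpecialLinearGroup.coe_one, bk_one]⟩
  map_one' := Units.ext bk_one
  map_mul' x y := Units.ext (bk_mul _ (mem_N2.1 y.2).1)

theorem coe_bl (x : N2 F) : ((bl x : GL (Fin 2) F) : Matrix (Fin 2) (Fin 2) F) =
    bk ((x : Matrix.SpecialLinearGroup (Fin 3) F) : Matrix (Fin 3) (Fin 3) F) := rfl

theorem exists_block {A : Matrix (Fin 2) (Fin 2) F} (hA : A.det ≠ 0) : ∃ x : N2 F,
    bk ((x : Matrix.SpecialLinearGroup (Fin 3) F) : Matrix (Fin 3) (Fin 3) F) = A := by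
  let X : Matrix (Fin 3) (Fin 3) F := !![A.det⁻¹, 0, 0; 0, A 0 0, A 0 1; 0, A 1 0, A 1 1]
  have hX : Bd X := by
    refine ⟨fun j => ?_, fun i => ?_⟩
    · fin_cases j <;> rfl
    · fin_cases i <;> rfl
  have hb : bk X = A := by
    ext i j
    fin_cases i <;> fin_cases j <;> rfl
  have hd : X.det = 1 := by
    rw [hX.det, hb]
    exact inv_mul_cancel₀ hA
  exact ⟨⟨⟨X, hd⟩, hX⟩, hb⟩

theorem bl_surjective : Function.Surjective (bl : N2 F →* _) := by
  intro g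
  have hg : (g : Matrix (Fin 2) (Fin 2) F).det ≠ 0 := (Matrix.GeneralLinearGroup.det g).ne_zero
  obtain ⟨x, hx⟩ := exists_block hg
  exact ⟨x, Units.ext hx⟩

/-- odd index -/
theorem odd_index_N2 [Fintype F] (ho : Odd (Fintype.card F)) : Odd (N2 F).index := by
  obtain ⟨q, hq⟩ : ∃ q, q = Fintype.card F := ⟨_, rfl⟩
  have hq1 : 1 < q := by rw [hq]; exact Fintype.one_lt_card
  rw [← hq] at ho
  have h1 := Cfsg.Agent.S0242.result (F := F) hq.symm 3 (by norm_num)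
  have h2 := Subgroup.card_mul_index (N2 F)
  obtain ⟨c, hc⟩ := Subgroup.card_dvd_of_surjective (bl : N2 F →* _) bl_surjective
  have h3 : Nat.card (GL (Fin 2) F) = (q ^ 2 - 1) * (q ^ 2 - q) := by
    rw [Matrix.card_GL_field, Fin.prod_univ_two, ← hq]
    simp
  rw [Fin.prod_univ_three, ← h2, hc, h3] at h1
  simp only [Fin.val_zero, Fin.val_one, Fin.val_two, pow_zero, pow_one] at h1
  have e1 : q ^ 3 - 1 = (q - 1) * (q ^ 2 + q + 1) := by
    zify [Nat.one_le_pow 3 q (by omega), hq1.le]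
    ring
  have e2 : q ^ 3 - q = q * (q ^ 2 - 1) := by
    rw [Nat.mul_sub, mul_one]
    congr 1
    ring
  have e3 : q ^ 3 - q ^ 2 = q * (q ^ 2 - q) := by
    rw [Nat.mul_sub]
    congr 1 <;> ring
  have e4 : q ^ 2 - q ≠ 0 := by
    have : q * 1 < q * q := Nat.mul_lt_mul_of_pos_left hq1 (by omega)
    rw [pow_two]
    omega
  have e5 : q ^ 2 - 1 ≠ 0 := by
    have : 1 * 1 < q * q := Nat.mul_lt_mul'' hq1 hq1
    rw [pow_two]
    omega
  rw [e1, e2, e3] at h1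
  have h4 : ((q - 1) * ((q ^ 2 - 1) * (q ^ 2 - q))) * (c * (N2 F).index) =
      ((q - 1) * ((q ^ 2 - 1) * (q ^ 2 - q))) * (q ^ 2 * (q ^ 2 + q + 1)) := by
    calc _ = (q - 1) * ((q ^ 2 - 1) * (q ^ 2 - q) * c * (N2 F).index) := by ring
      _ = (q - 1) * (q ^ 2 + q + 1) * (q * (q ^ 2 - 1)) * (q * (q ^ 2 - q)) := h1
      _ = _ := by ring
  have h5 : c * (N2 F).index = q ^ 2 * (q ^ 2 + q + 1) :=
    Nat.eq_of_mul_eq_mul_left (Nat.pos_of_ne_zero (mul_ne_zero (by omega) (mul_ne_zero e5 e4))) h4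
  refine Odd.of_dvd_nat ?_ (Dvd.intro_left c h5)
  refine ho.pow.mul ?_
  have h6 : Odd (q ^ 2) := ho.pow
  rw [Nat.odd_iff] at *
  omega

/-! ### the projective group -/

theorem mem_center_of {g : GL (Fin 2) F} {c : F} (h : (g : Matrix (Fin 2) (Fin 2) F) = c • (1 : Matrix (Fin 2) (Fin 2) F)) :
    g ∈ Subgroup.center (GL (Fin 2) F) := by
  rw [Subgroup.mem_center_iff]
  intro x
  apply Units.ext
  rw [Units.val_mul, Units.val_mul, h, mul_smul_comm, mul_one, smul_mul_assoc, one_mul]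

variable (F) in
/-- `PGL_2` -/
abbrev Pj : Type _ := GL (Fin 2) F ⧸ Subgroup.center (GL (Fin 2) F)

variable (F) in
/-- the projection -/
abbrev pj : GL (Fin 2) F →* Pj F := QuotientGroup.mk' _

theorem pj_eq {g h : GL (Fin 2) F} {c : F}
    (hgh : ((g⁻¹ * h : GL (Fin 2) F) : Matrix (Fin 2) (Fin 2) F) = c • (1 : Matrix (Fin 2) (Fin 2) F)) :
    pj F g = pj F h := QuotientGroup.eq.2 (mem_center_of hgh)

/-- the homomorphism onto `PGL_2` -/
def f2 (F : Type*) [Field F] : N2 F →* Pj F := (pj F).comp bl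

theorem f2_surjective : Function.Surjective (f2 F) :=
  (QuotientGroup.mk'_surjective _).comp bl_surjective

theorem f2_apply (x : N2 F) : f2 F x = pj F (bl x) := rfl

theorem f2_ker (x : N2 F) (hx : pr (x : Matrix.SpecialLinearGroup (Fin 3) F) = 1) : f2 F x = 1 := by
  obtain ⟨r, -, hxr⟩ := Matrix.SpecialLinearGroup.mem_center_iff.1 ((pr_eq_one_iff _).1 hx)
  rw [f2_apply, ← map_one (pj F)]
  symm
  refine pj_eq (c := r) ?_
  rw [inv_one, one_mul, coe_bl, ← hxr]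
  ext i j
  rw [bk_apply, scalar_apply, Matrix.smul_apply, Matrix.one_apply, smul_eq_mul]
  by_cases hij : i = j
  · subst hij
    simp
  · rw [diagonal_apply_ne _ (fun h => hij (Fin.succ_injective _ h)), if_neg hij, mul_zero]

/-- `J` -/
def J (F : Type*) [Field F] : GL (Fin 2) F :=
  ⟨!![0, 1; -1, 0], !![0, -1; 1, 0], by ext i j; fin_cases i <;> fin_cases j <;> simp [Matrix.mul_apply],
    by ext i j; fin_cases i <;> fin_cases j <;> simp [Matrix.mul_apply]⟩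

theorem pj_itrGL (A : GL (Fin 2) F) : pj F (itrGL A) = pj F (J F) * pj F A * (pj F (J F))⁻¹ := by
  rw [← map_inv, ← map_mul, ← map_mul]
  refine pj_eq (c := (A : Matrix (Fin 2) (Fin 2) F).det) ?_
  rw [Units.val_mul, Units.val_mul, Units.val_mul]
  show (A : Matrix (Fin 2) (Fin 2) F)ᵀ * (!![0, 1; -1, 0] * (A : Matrix (Fin 2) (Fin 2) F) * !![0, -1; 1, 0]) = _
  obtain ⟨a, b, c, d, h⟩ : ∃ a b c d, (A : Matrix (Fin 2) (Fin 2) F) = !![a, b; c, d] :=
    ⟨_, _, _, _, Matrix.eta_fin_two _⟩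
  rw [h, Matrix.det_fin_two_of, Matrix.mul_fin_two, Matrix.mul_fin_two]
  ext i j
  fin_cases i <;> fin_cases j <;> simp [Matrix.mul_apply, Fin.sum_univ_two] <;> ring

/-- inverse transposes -/
theorem itr_mem {x : Matrix.SpecialLinearGroup (Fin 3) F} (hx : x ∈ N2 F) : itr x ∈ N2 F := by
  have h1 := mem_N2.1 (inv_mem hx)
  rw [mem_N2, coe_itr]
  exact ⟨fun j => h1.2 j, fun i => h1.1 i⟩

theorem bl_itr (x : N2 F) : bl ⟨itr (x : Matrix.SpecialLinearGroup (Fin 3) F), itr_mem x.2⟩ = itrGL (bl x) := by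
  apply Units.ext
  rw [coe_bl]
  show bk ((itr (x : Matrix.SpecialLinearGroup (Fin 3) F) : Matrix.SpecialLinearGroup (Fin 3) F) :
    Matrix (Fin 3) (Fin 3) F) = _
  rw [coe_itr]
  rfl

/-- diagonal conjugation -/
theorem diag_inv {D : GL (Fin 3) F} {d : Fin 3 → F} (hD : (D : Matrix (Fin 3) (Fin 3) F) = diagonal d)
    (hd : ∀ i, d i ≠ 0) : ((D⁻¹ : GL (Fin 3) F) : Matrix (Fin 3) (Fin 3) F) = diagonal fun i => (d i)⁻¹ := by
  have h1 : ((D⁻¹ : GL (Fin 3) F) : Matrix (Fin 3) (Fin 3) F) * diagonal d = 1 := by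
    rw [← hD, ← Units.val_mul, inv_mul_cancel, Units.val_one]
  have h2 : diagonal d * (diagonal fun i => (d i)⁻¹) = (1 : Matrix (Fin 3) (Fin 3) F) := by
    rw [diagonal_mul_diagonal, ← diagonal_one]
    congr 1
    funext i
    exact mul_inv_cancel₀ (hd i)
  calc ((D⁻¹ : GL (Fin 3) F) : Matrix (Fin 3) (Fin 3) F) =
      ((D⁻¹ : GL (Fin 3) F) : Matrix (Fin 3) (Fin 3) F) * (diagonal d * (diagonal fun i => (d i)⁻¹)) := by
        rw [h2, mul_one]
    _ = diagonal fun i => (d i)⁻¹ := by rw [← mul_assoc, h1, one_mul]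

theorem cj_mem {D : GL (Fin 3) F} {d : Fin 3 → F} (hD : (D : Matrix (Fin 3) (Fin 3) F) = diagonal d)
    (hd : ∀ i, d i ≠ 0) {x : Matrix.SpecialLinearGroup (Fin 3) F} (hx : x ∈ N2 F) : cj D x ∈ N2 F := by
  rw [mem_N2] at hx ⊢
  rw [coe_cj, hD, diag_inv hD hd]
  refine ⟨fun j => ?_, fun i => ?_⟩
  · rw [mul_diagonal, diagonal_mul, hx.1, mul_zero, zero_mul]
  · rw [mul_diagonal, diagonal_mul, hx.2, mul_zero, zero_mul]

theorem bl_cj {D : GL (Fin 3) F} {d : Fin 3 → F} (hD : (D : Matrix (Fin 3) (Fin 3) F) = diagonal d)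
    (hd : ∀ i, d i ≠ 0) : ∃ Δ : GL (Fin 2) F, ∀ x : N2 F, bl ⟨cj D x, cj_mem hD hd x.2⟩ = Δ * bl x * Δ⁻¹ := by
  refine ⟨⟨diagonal fun i => d i.succ, diagonal fun i => (d i.succ)⁻¹, ?_, ?_⟩, fun x => ?_⟩
  · rw [diagonal_mul_diagonal, ← diagonal_one]
    congr 1
    funext i
    exact mul_inv_cancel₀ (hd _)
  · rw [diagonal_mul_diagonal, ← diagonal_one]
    congr 1
    funext i
    exact inv_mul_cancel₀ (hd _)
  · apply Units.ext
    rw [coe_bl, Units.val_mul, Units.val_mul]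
    show bk ((cj D (x : Matrix.SpecialLinearGroup (Fin 3) F) : Matrix.SpecialLinearGroup (Fin 3) F) :
      Matrix (Fin 3) (Fin 3) F) = diagonal (fun i => d i.succ) * _ * diagonal fun i => (d i.succ)⁻¹
    rw [coe_cj, hD, diag_inv hD hd, coe_bl]
    ext i j
    rw [bk_apply, mul_diagonal, diagonal_mul, mul_diagonal, diagonal_mul, bk_apply]

/-- the automorphisms we need: they stabilise `N2` and act as inner automorphisms of `PGL_2` -/
def Ok (α : MulAut (Matrix.SpecialLinearGroup (Fin 3) F)) : Prop :=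
  ∃ (h : ∀ x ∈ N2 F, α x ∈ N2 F) (v : Pj F), ∀ x : N2 F, f2 F ⟨α x, h x x.2⟩ = v * f2 F x * v⁻¹

theorem Ok.mul {α β : MulAut (Matrix.SpecialLinearGroup (Fin 3) F)} (hα : Ok α) (hβ : Ok β) : Ok (α * β) := by
  obtain ⟨h, v, hv⟩ := hα
  obtain ⟨h', v', hv'⟩ := hβ
  refine ⟨fun x hx => h _ (h' x hx), v * v', fun x => ?_⟩
  have e1 := hv ⟨β x, h' x x.2⟩
  rw [hv'] at e1
  calc f2 F ⟨(α * β) x, h _ (h' x x.2)⟩ = v * (v' * f2 F x * v'⁻¹) * v⁻¹ := e1
    _ = _ := by group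

theorem ok_cj {D : GL (Fin 3) F} {d : Fin 3 → F} (hD : (D : Matrix (Fin 3) (Fin 3) F) = diagonal d)
    (hd : ∀ i, d i ≠ 0) : Ok (cj D) := by
  obtain ⟨Δ, hΔ⟩ := bl_cj hD hd
  refine ⟨fun x hx => cj_mem hD hd hx, pj F Δ, fun x => ?_⟩
  rw [f2_apply, hΔ, f2_apply, map_mul, map_mul, map_inv]

theorem ok_itr : Ok (itr : MulAut (Matrix.SpecialLinearGroup (Fin 3) F)) := by
  refine ⟨fun x hx => itr_mem hx, pj F (J F), fun x => ?_⟩
  rw [f2_apply, bl_itr, f2_apply, pj_itrGL]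

/-- the Sylow 2-subgroups of `PGL_2` -/
theorem rk_two [Finite F] (h2 : (2 : F) ≠ 0) (Q : Sylow 2 (f2 F).range) : Rk 2 Q := by
  let A : GL (Fin 2) F := ⟨!![1, 0; 0, -1], !![1, 0; 0, -1],
    by ext i j; fin_cases i <;> fin_cases j <;> simp [Matrix.mul_apply],
    by ext i j; fin_cases i <;> fin_cases j <;> simp [Matrix.mul_apply]⟩
  let B : GL (Fin 2) F := ⟨!![0, 1; 1, 0], !![0, 1; 1, 0],
    by ext i j; fin_cases i <;> fin_cases j <;> simp [Matrix.mul_apply],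
    by ext i j; fin_cases i <;> fin_cases j <;> simp [Matrix.mul_apply]⟩
  have hAA : A * A = 1 := Units.ext (by
    show !![1, 0; 0, -1] * !![1, 0; 0, -1] = (1 : Matrix (Fin 2) (Fin 2) F)
    ext i j; fin_cases i <;> fin_cases j <;> simp [Matrix.mul_apply])
  have hBB : B * B = 1 := Units.ext (by
    show !![0, 1; 1, 0] * !![0, 1; 1, 0] = (1 : Matrix (Fin 2) (Fin 2) F)
    ext i j; fin_cases i <;> fin_cases j <;> simp [Matrix.mul_apply])
  have hAi : A⁻¹ = A := inv_eq_of_mul_eq_one_left hAA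
  have hBi : B⁻¹ = B := inv_eq_of_mul_eq_one_left hBB
  have hne1 : (1 : F) ≠ -1 := fun h => h2 (by linear_combination h)
  -- matrices which commute with `A` and `B` modulo scalars
  have hcomm : pj F A * pj F B = pj F B * pj F A := by
    rw [← map_mul, ← map_mul]
    refine pj_eq (c := -1) ?_
    rw [_root_.mul_inv_rev, hAi, hBi]
    show !![0, 1; 1, 0] * !![1, 0; 0, -1] * (!![0, 1; 1, 0] * !![1, 0; 0, -1]) = _
    ext i j; fin_cases i <;> fin_cases j <;> simp [Matrix.mul_apply]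
  have hnc : ∀ g : GL (Fin 2) F, pj F g = 1 → ∀ x : GL (Fin 2) F,
      (x : Matrix (Fin 2) (Fin 2) F) * g = (g : Matrix (Fin 2) (Fin 2) F) * x := by
    intro g hg x
    have h3 := (Subgroup.mem_center_iff.1 ((QuotientGroup.eq_one_iff g).1 hg)) x
    rw [← Units.val_mul, ← Units.val_mul, h3]
  have hA1 : pj F A ≠ 1 := by
    intro h
    have h3 := congrFun (congrFun (hnc A h B) 0) 1
    change (!![0, 1; 1, 0] * !![1, 0; 0, -1] : Matrix (Fin 2) (Fin 2) F) 0 1 =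
      (!![1, 0; 0, -1] * !![0, 1; 1, 0] : Matrix (Fin 2) (Fin 2) F) 0 1 at h3
    simp [Matrix.mul_apply] at h3
    exact hne1 h3.symm
  have hB1 : pj F B ≠ 1 := by
    intro h
    have h3 := congrFun (congrFun (hnc B h A) 0) 1
    change (!![1, 0; 0, -1] * !![0, 1; 1, 0] : Matrix (Fin 2) (Fin 2) F) 0 1 =
      (!![0, 1; 1, 0] * !![1, 0; 0, -1] : Matrix (Fin 2) (Fin 2) F) 0 1 at h3
    simp [Matrix.mul_apply] at h3
    exact hne1 h3
  have hAB : pj F A ≠ pj F B := by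
    intro h
    have h4 : pj F (A * B) = 1 := by
      rw [map_mul, h, ← map_mul, hBB, map_one]
    have h3 := congrFun (congrFun (hnc (A * B) h4 A) 0) 1
    change (!![1, 0; 0, -1] * (!![1, 0; 0, -1] * !![0, 1; 1, 0]) : Matrix (Fin 2) (Fin 2) F) 0 1 =
      ((!![1, 0; 0, -1] * !![0, 1; 1, 0]) * !![1, 0; 0, -1] : Matrix (Fin 2) (Fin 2) F) 0 1 at h3
    simp [Matrix.mul_apply] at h3
    exact hne1 h3
  obtain ⟨a, ha⟩ := f2_surjective (F := F) (pj F A)
  obtain ⟨b, hb⟩ := f2_surjective (F := F) (pj F B)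
  refine Cfsg.Agent.H716.K547.rk_two_sylow (a := (f2 F).rangeRestrict a) (b := (f2 F).rangeRestrict b)
    (Subtype.ext ?_) (Subtype.ext ?_) (Subtype.ext ?_) (fun h => ?_) (fun h => ?_) (fun h => ?_) Q
  · show f2 F a * f2 F a = 1
    rw [ha, ← map_mul, hAA, map_one]
  · show f2 F b * f2 F b = 1
    rw [hb, ← map_mul, hBB, map_one]
  · show f2 F a * f2 F b = f2 F b * f2 F a
    rw [ha, hb, hcomm]
  · have h3 : f2 F a = 1 := congrArg Subtype.val h
    rw [ha] at h3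
    exact hA1 h3
  · have h3 : f2 F b = 1 := congrArg Subtype.val h
    rw [hb] at h3
    exact hB1 h3
  · have h3 : f2 F a = f2 F b := congrArg Subtype.val h
    rw [ha, hb] at h3
    exact hAB h3

/-- 2-power order: no field part -/
theorem form_of_twoPow [Fintype F] (h3 : Fintype.card F % 4 = 3) (τ : MulAut (ProjectiveSpecialLinearGroup (Fin 3) F))
    (hτ : TwoPow τ) : ∃ A : GL (Fin 3) F, τ = lift (cj A) ∨ τ = lift (cj A * itr) := by
  obtain ⟨p, hp⟩ := CharP.exists F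
  have : Fact p.Prime := ⟨CharP.char_is_prime F p⟩
  obtain ⟨k, hk⟩ := hτ
  obtain ⟨g, hg⟩ := H716.K547.isInn_iff.1 hk
  rcases surj_three p (by norm_num) τ with ⟨A, σ, rfl⟩ | ⟨A, σ, rfl⟩
  · obtain ⟨A', hA'⟩ := pow_form A σ (2 ^ k)
    rw [← map_pow, hA'] at hg
    have hσ : σ = 1 := fld_eq_one h3 k σ (fld_of_lift hg).2
    subst hσ
    exact ⟨A, Or.inl (by rw [map_one, mul_one])⟩
  · have hsq : (lift (cj A * fld σ * itr) : MulAut (ProjectiveSpecialLinearGroup (Fin 3) F)) ^ 2 =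
        lift (cj (A * fldGL σ (itrGL A)) * fld (σ * σ)) := by
      rw [← map_pow, pow_two, sq_form]
    obtain ⟨A', hA'⟩ := pow_form (A * fldGL σ (itrGL A)) (σ * σ) (2 ^ k)
    have h1 : lift (cj A' * fld ((σ * σ) ^ 2 ^ k)) = lift (cj (Matrix.SpecialLinearGroup.toGL (g * g))) := by
      rw [← hA', map_pow lift, ← hsq, ← pow_mul, mul_comm, pow_mul, hg, ← map_pow, ← map_pow, ← map_pow, pow_two]
    have h2 : σ * σ = 1 := fld_eq_one h3 k _ (fld_of_lift h1).2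
    have hσ : σ = 1 := fld_eq_one h3 1 σ (by rw [pow_one, pow_two]; exact h2)
    subst hσ
    exact ⟨A, Or.inr (by rw [map_one fld, mul_one])⟩

/-- **outer automorphisms of `PSL_3(q)`, `q ≡ 3 mod 4`** -/
theorem ext_three [Fintype F] (h3 : Fintype.card F % 4 = 3) (τ : MulAut (ProjectiveSpecialLinearGroup (Fin 3) F))
    (ht : TwoPow τ) (hni : ¬ IsInn τ) : D3 (AutExt τ) := by
  have h2 : (2 : F) ≠ 0 := by
    intro h0
    have h1' : ringChar F ∣ 2 := (ringChar.spec F 2).1 (by exact_mod_cast h0)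
    have h3 : ringChar F = 2 := by
      rcases (Nat.dvd_prime Nat.prime_two).1 h1' with h4 | h4
      · exact absurd h4 (CharP.ringChar_ne_one)
      · exact h4
    have h4 := FiniteField.even_card_of_char_two h3
    omega
  have hsimple : IsSimpleGroup (ProjectiveSpecialLinearGroup (Fin 3) F) := Cfsg.Agent.S0249.result 3 (by norm_num)
  have key : ∃ (B : Matrix.SpecialLinearGroup (Fin 3) F) (α : MulAut (Matrix.SpecialLinearGroup (Fin 3) F)),
      Ok α ∧ τ = MulAut.conj (pr B) * lift α := by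
    obtain ⟨A, hA⟩ := form_of_twoPow h3 τ ht
    obtain ⟨B, D, d, hD, hd, rfl⟩ := exists_decomp (by norm_num) A
    rcases hA with rfl | rfl
    · refine ⟨B, cj D, ok_cj hD hd, ?_⟩
      rw [← lift_cj_toGL, ← map_mul, ← map_mul]
    · refine ⟨B, cj D * itr, (ok_cj hD hd).mul ok_itr, ?_⟩
      rw [← lift_cj_toGL, ← map_mul, ← mul_assoc, ← map_mul]
  obtain ⟨B, α, ⟨hα, v, hv⟩, rfl⟩ := key
  have hrange : v ∈ (f2 F).range := by
    rw [MonoidHom.range_eq_top.2 f2_surjective]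
    exact Subgroup.mem_top v
  refine d3_of_cover pr pr_surjective (N2 F) (odd_index_N2 (by rw [Nat.odd_iff]; omega)) (f2 F) f2_ker _ ht hni
    (pr B)⁻¹ α ?_ hα v hrange hv (fun Q => rk_two h2 Q)
  intro x
  rw [MulAut.mul_apply, MulAut.mul_apply, lift_pr, MulAut.conj_apply, MulAut.conj_apply]
  group

end Cfsg.Agent.H829.K547.PslB
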