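import Cfsg.Agent.H829.K547.Forms
import Cfsg.Agent.AutOrth.Final

/-!
# `D3 (AutExt τ)` for the simple orthogonal groups in odd characteristic
-/

set_option autoImplicit false

namespace Cfsg.Agent.H829.K547

open QuadraticMap Cfsg.Agent.LieClassical.OrthCore Cfsg.Agent.LieClassical.OrthTrans
  Cfsg.Agent.LieClassical.OrthSimple Cfsg.Agent.LieClassical.OrthFinite Cfsg.Agent.ClassicalGeometry.OrthSemi
  Cfsg.Agent.ClassicalGeometry.OrthSemiForms
  Cfsg.Agent.ClassicalGeometry.OrthSemiCount Cfsg.Agent.ClassicalGeometry.OrthAut1 Cfsg.Agent.H821.K547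
  Cfsg.Agent.H122.OrthIso Cfsg.Agent.H637

universe u

variable {F : Type u} [Field F] [Fintype F]

omit [Fintype F] in
theorem finrank_model (m : ℕ) (κ : Type) [Fintype κ] :
    Module.finrank F ((Fin m → (Fin 2 → F)) × (κ → F)) = 2 * m + Fintype.card κ := by
  rw [Module.finrank_prod, Module.finrank_pi_fintype, Module.finrank_fintype_fun_eq_card]
  simp only [Module.finrank_fintype_fun_eq_card, Fintype.card_fin, Finset.sum_const, Finset.card_univ, smul_eq_mul]
  ring

theorem val_plane (hF : Odd (Fintype.card F)) :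
    padicValNat 2 (Nat.card ↥(O (pl F))) = padicValNat 2 (Fintype.card F ^ 2 - 1) := by
  have h2 := two_ne_zero_of_odd hF
  rw [card_O, (val_even hF (pl F) (DQ_nondegenerate h2 _ fun _ => one_ne_zero) 0 (by simp)).1 ?_]
  · simp [ov]
  · rw [disc_DQ, Fin.prod_univ_two]
    exact ⟨2 * 1, rfl⟩

theorem finite_OQM (m : ℕ) {κ : Type} [Fintype κ] (w : QuadraticForm F (κ → F)) : Finite ↥(O (QM (pl F) w m)) := by
  have : Finite (((Fin m → (Fin 2 → F)) × (κ → F)) ≃ₗ[F] ((Fin m → (Fin 2 → F)) × (κ → F))) := finite_glin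
  infer_instance

theorem good_model (hF : Odd (Fintype.card F)) {m : ℕ} (hm : 3 ≤ m) {κ : Type} [Fintype κ] [DecidableEq κ]
    {d : κ → F} (hd : ∀ k, d k ≠ 0) : Good (QM (pl F) (DQ d) m) :=
  good_of_finite (nondeg_QM (nondeg_DQ (two_ne_zero_of_odd hF) _ fun _ => one_ne_zero)
    (nondeg_DQ (two_ne_zero_of_odd hF) _ hd)) (by rw [finrank_model]; omega)

/-- **Forms of even dimension.** -/
theorem ext_even (inv : InvTool.{u, 0}) (hF : Odd (Fintype.card F)) {ι : Type} [Fintype ι] [DecidableEq ι]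
    (Q' : QuadraticForm F (ι → F)) (hQ' : Nondeg Q') (n : ℕ) (hn : 4 ≤ n) (hcard : Fintype.card ι = 2 * n)
    (hpsi : Odd (Psi Q').range.index) : ExtD3 (P Q') := by
  have h2 := two_ne_zero_of_odd hF
  have hQ'n := nondegenerate_of_nondeg hQ'
  have hG' : Good Q' := good_of_finite hQ' (by rw [Module.finrank_fintype_fun_eq_card]; omega)
  have hd0 := disc_ne_zero' Q' hQ'n
  obtain ⟨k, rfl⟩ : ∃ k, n = k + 1 := ⟨n - 1, by omega⟩
  by_cases hsq : IsSquare (disc Q')
  · have hd : ∀ k : Fin 0, (fun _ => 1 : Fin 0 → F) k ≠ 0 := fun k => k.elim0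
    have hG := good_model hF (m := k + 1) (by omega) hd
    have hiso : IsoQ (QM (pl F) (DQ (fun _ => 1 : Fin 0 → F)) (k + 1)) Q' := by
      refine (isoQ_coord (k + 1) _).trans ?_
      obtain ⟨e, he⟩ := exists_equiv h2 Q' (DQ (Sum.elim (fun _ : Fin (k + 1) × Fin 2 => (1 : F))
        (fun _ => 1 : Fin 0 → F))) hQ'n (DQ_nondegenerate h2 _ (by rintro (i | i) <;> exact one_ne_zero))
        (by rw [hcard]; simp; ring) (by
          rw [disc_DQ]
          refine hsq.mul ?_
          rw [Fintype.prod_sum_type, Fintype.prod_prod_type]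
          simp only [Sum.elim_inl, Fin.prod_univ_two, Finset.univ_eq_empty, Finset.prod_empty, mul_one]
          exact ⟨2 ^ (k + 1), by rw [Finset.prod_const, Finset.card_univ, Fintype.card_fin, mul_pow]⟩)
      exact ⟨e, fun v => (he v).symm⟩
    have hfO := finite_OQM (k + 1) (DQ (fun _ => 1 : Fin 0 → F))
    have hv : Odd ((TO (pl F) (DQ (fun _ => 1 : Fin 0 → F)) (k + 1)).subgroupOf
        (O (QM (pl F) (DQ (fun _ => 1 : Fin 0 → F)) (k + 1)))).index := by
      refine odd_TO ?_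
      rw [card_O_iso hiso, card_O, (val_even hF Q' hQ'n k hcard).1 hsq, val_plane hF, ov]
      omega
    have hodd := odd_Fr hv (fun σ c M hM => by
      obtain ⟨f, hf⟩ := exists_isSS_two h2 (fun _ => (1 : F)) rfl one_ne_zero σ c hM.ne
      obtain ⟨g, hg⟩ := exists_isSS_zero (fun _ => 1 : Fin 0 → F) σ c hM.ne
      exact exists_isSS_Fr hM.ne hf hg)
    obtain ⟨e⟩ := equiv_P hiso
    have : Finite (((Fin (k + 1) → (Fin 2 → F)) × (Fin 0 → F)) ≃ₗ[F] ((Fin (k + 1) → (Fin 2 → F)) × (Fin 0 → F))) :=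
      finite_glin
    refine ExtD3.congr e ?_
    exact d3_perm inv hG hodd (by rw [index_Psi_iso hG hG' hiso]; exact hpsi) (exists_plane h2) hn
  · set d : Fin 2 → F := ![1, disc Q'] with hdd
    have hd : ∀ k, d k ≠ 0 := by
      intro k
      fin_cases k
      · exact one_ne_zero
      · exact hd0
    have hG := good_model hF (m := k) (by omega) hd
    have hiso : IsoQ (QM (pl F) (DQ d) k) Q' := by
      refine (isoQ_coord k _).trans ?_
      obtain ⟨e, he⟩ := exists_equiv h2 Q' (DQ (Sum.elim (fun _ : Fin k × Fin 2 => (1 : F)) d)) hQ'n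
        (DQ_nondegenerate h2 _ (by
          rintro (i | i)
          · exact one_ne_zero
          · exact hd i))
        (by rw [hcard]; simp; ring) (by
          rw [disc_DQ]
          rw [Fintype.prod_sum_type, Fintype.prod_prod_type]
          simp only [Sum.elim_inl, Sum.elim_inr, Fin.prod_univ_two, mul_one]
          have e1 : d 0 = 1 := rfl
          have e2 : d 1 = disc Q' := rfl
          rw [e1, e2, Finset.prod_mul_distrib]
          exact ⟨disc Q' * ((∏ _i : Fin k, 2) * 2), by ring⟩)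
      exact ⟨e, fun v => (he v).symm⟩
    have hfO := finite_OQM k (DQ d)
    have hw2 : padicValNat 2 (Nat.card ↥(O (DQ d))) = 2 := by
      rw [card_O, (val_even hF (DQ d) (DQ_nondegenerate h2 _ hd) 0 (by simp)).2 ?_]
      · simp [ov]
      · rw [disc_DQ, Fin.prod_univ_two]
        have e1 : d 0 = 1 := rfl
        have e2 : d 1 = disc Q' := rfl
        rw [e1, e2]
        rintro ⟨t, ht⟩
        apply hsq
        refine ⟨t / 2, ?_⟩
        field_simp
        linear_combination ht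
    have hv : Odd ((TO (pl F) (DQ d) k).subgroupOf (O (QM (pl F) (DQ d) k))).index := by
      refine odd_TO ?_
      rw [card_O_iso hiso, card_O, (val_even hF Q' hQ'n k hcard).2 hsq, val_plane hF, hw2, ov]
      omega
    have hodd := odd_Fr hv (fun σ c M hM => by
      obtain ⟨f, hf⟩ := exists_isSS_two h2 (fun _ => (1 : F)) rfl one_ne_zero σ c hM.ne
      obtain ⟨g, hg⟩ := exists_isSS_two h2 d rfl hd0 σ c hM.ne
      exact exists_isSS_Fr hM.ne hf hg)
    obtain ⟨e⟩ := equiv_P hiso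
    have : Finite (((Fin k → (Fin 2 → F)) × (Fin 2 → F)) ≃ₗ[F] ((Fin k → (Fin 2 → F)) × (Fin 2 → F))) :=
      finite_glin
    refine ExtD3.congr e ?_
    exact d3_two inv h2 hG (nondeg_DQ h2 _ fun _ => one_ne_zero) (nondeg_DQ h2 _ hd)
      (by rw [Module.finrank_fintype_fun_eq_card, Fintype.card_fin]) hodd
      (by rw [index_Psi_iso hG hG' hiso]; exact hpsi) (exists_plane h2) (by omega) (drefl_mem_O d 0) (det_drefl 0)

/-- the semisimilitudes of the frame in odd dimension -/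
theorem exists_frame_odd (hF : Odd (Fintype.card F)) {m : ℕ} (hm : 3 ≤ m) {d : Fin 1 → F} (hd : d 0 ≠ 0)
    {σ : F ≃+* F} {c : F} {M : Equiv.Perm ((Fin m → (Fin 2 → F)) × (Fin 1 → F))}
    (hM : IsSS (QM (pl F) (DQ d) m) σ c M) :
    ∃ t ∈ Fr (Fin 2 → F) (Fin 1 → F) m, IsSS (QM (pl F) (DQ d) m) σ c t := by
  have h2 := two_ne_zero_of_odd hF
  have hd' : ∀ k, d k ≠ 0 := fun k => by fin_cases k; exact hd
  obtain ⟨f, hf⟩ := exists_isSS_two h2 (fun _ => (1 : F)) rfl one_ne_zero σ 1 one_ne_zero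
  obtain ⟨g, hg⟩ := exists_isSS_one h2 d hd σ
  obtain ⟨t, ht, hts⟩ := exists_isSS_Fr (m := m) one_ne_zero hf hg
  have h1 := hM.mul hts.inv
  have e1 : σ.symm.trans σ = RingEquiv.refl F := by ext x; simp
  rw [e1, inv_one, map_one, map_one, mul_one] at h1
  obtain ⟨r, hr⟩ := isSquare_of_odd h2 (good_model hF hm hd').nondeg
    (by rw [finrank_model, Fintype.card_fin]; exact ⟨m, rfl⟩) h1
  have hr0 : r ≠ 0 := by
    rintro rfl
    rw [mul_zero] at hr
    exact hM.ne hr
  refine ⟨(scal (QM (pl F) (DQ d) m) (Units.mk0 r hr0)).1 * t, (Fr _ _ m).mul_mem (scal_mem_Fr _) ht, ?_⟩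
  refine ⟨hM.ne, fun u v => ?_, fun a v => ?_, fun v => ?_⟩
  · change r • t (u + v) = r • t u + r • t v
    rw [hts.add, smul_add]
  · change r • t (a • v) = σ a • r • t v
    rw [hts.smul, smul_comm]
  · change QM (pl F) (DQ d) m (r • t v) = c * σ (QM (pl F) (DQ d) m v)
    rw [QuadraticMap.map_smul, hts.form, hr, smul_eq_mul, one_mul]

/-- **Odd dimension.** -/
theorem ext_odd (inv : InvTool.{u, 0}) (hF : Odd (Fintype.card F)) {m : ℕ} (hm : 3 ≤ m)
    (hpsi : Odd (Psi (Cfsg.Agent.LieClassical.OrthForms.oddForm m F)).range.index) :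
    ExtD3 (P (Cfsg.Agent.LieClassical.OrthForms.oddForm m F)) := by
  have h2 := two_ne_zero_of_odd hF
  set Q' := Cfsg.Agent.LieClassical.OrthForms.oddForm m F with hQdef
  have hQ' : Nondeg Q' := Cfsg.Agent.LieClassical.OrthForms.nondeg_oddForm m F h2
  have hcard : Fintype.card (Unit ⊕ (Fin m ⊕ Fin m)) = 2 * m + 1 := by
    simp; ring
  have hQ'n := nondegenerate_of_nondeg hQ'
  have hG' : Good Q' := good_of_finite hQ' (by rw [Module.finrank_fintype_fun_eq_card, hcard]; omega)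
  have hd0 := disc_ne_zero' Q' hQ'n
  set d : Fin 1 → F := fun _ => 2 * disc Q' with hdd
  have hd : ∀ k, d k ≠ 0 := fun k => mul_ne_zero h2 hd0
  have hG := good_model hF (m := m) (by omega) hd
  have hiso : IsoQ (QM (pl F) (DQ d) m) Q' := by
    refine (isoQ_coord m _).trans ?_
    obtain ⟨e, he⟩ := exists_equiv h2 Q' (DQ (Sum.elim (fun _ : Fin m × Fin 2 => (1 : F)) d)) hQ'n
      (DQ_nondegenerate h2 _ (by
        rintro (i | i)
        · exact one_ne_zero
        · exact hd i))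
      (by rw [hcard]; simp; ring) (by
        rw [disc_DQ]
        rw [Fintype.prod_sum_type, Fintype.prod_prod_type]
        simp only [Sum.elim_inl, Sum.elim_inr, Fin.prod_univ_two, mul_one, Fin.prod_univ_one]
        rw [Finset.prod_mul_distrib]
        have e1 : d 0 = 2 * disc Q' := rfl
        rw [e1]
        exact ⟨disc Q' * ((∏ _i : Fin m, 2) * 2), by ring⟩)
    exact ⟨e, fun v => (he v).symm⟩
  have hfO := finite_OQM m (DQ d)
  have hw1 : 1 ≤ padicValNat 2 (Nat.card ↥(O (DQ d))) := by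
    have hf : Finite ((Fin 1 → F) ≃ₗ[F] (Fin 1 → F)) := finite_glin
    refine one_le_padicValNat_of_dvd Nat.card_pos.ne' ?_
    have h3 : orderOf (⟨drefl (Fin 1) F 0, drefl_mem_O d 0⟩ : ↥(O (DQ d))) = 2 := by
      have : Fact (Nat.Prime 2) := ⟨Nat.prime_two⟩
      rw [orderOf_eq_prime_iff]
      constructor
      · apply Subtype.ext
        ext v i
        rw [pow_two]
        change drefl (Fin 1) F 0 (drefl (Fin 1) F 0 _) i = _
        rw [drefl_apply, drefl_apply]
        split_ifs <;> simp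
      · intro h
        have h4 := congrArg (fun z : ↥(O (DQ d)) => z.1 (fun _ => (1 : F)) 0) h
        change drefl (Fin 1) F 0 (fun _ => 1) 0 = (1 : F) at h4
        rw [drefl_apply, if_pos rfl] at h4
        apply h2
        linear_combination -h4
    rw [← h3]
    exact orderOf_dvd_natCard _
  have hv : Odd ((TO (pl F) (DQ d) m).subgroupOf (O (QM (pl F) (DQ d) m))).index := by
    refine odd_TO ?_
    have e2 : ⇑Q' = ⇑(Cfsg.Agent.LieClassical.OmegaReindex.quadOdd m F) := by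
      rw [hQdef, Cfsg.Agent.LieClassical.OrthForms.coe_oddForm, Cfsg.Agent.LieClassical.OmegaReindex.coe_quadOdd]
    rw [card_O_iso hiso, card_O, e2, val_odd hF m, val_plane hF, ov]
    omega
  have hodd := odd_Fr hv (fun σ c M hM => exists_frame_odd hF hm (hd 0) hM)
  obtain ⟨e⟩ := equiv_P hiso
  have : Finite (((Fin m → (Fin 2 → F)) × (Fin 1 → F)) ≃ₗ[F] ((Fin m → (Fin 2 → F)) × (Fin 1 → F))) :=
    finite_glin
  refine ExtD3.congr e ?_
  exact d3_two inv h2 hG (nondeg_DQ h2 _ fun _ => one_ne_zero) (nondeg_DQ h2 _ hd)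
    (by rw [Module.finrank_fintype_fun_eq_card, Fintype.card_fin]) hodd
    (by rw [index_Psi_iso hG hG' hiso]; exact hpsi) (exists_plane h2) (by omega) (drefl_mem_O d 0) (det_drefl 0)

theorem odd_of_surj {G H : Type*} [Group G] [Group H] {f : G →* H} (h : Function.Surjective f) :
    Odd f.range.index := by
  rw [MonoidHom.range_eq_top.2 h, Subgroup.index_top]
  exact odd_one

theorem ext_pOmegaOdd (inv : InvTool.{u, 0}) (hF : Odd (Fintype.card F)) {m : ℕ} (hm : 3 ≤ m) :
    ExtD3 (Cfsg.POmega F (Cfsg.quadFormOdd m F)) := by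
  have h2 := two_ne_zero_of_odd hF
  have hG := good_odd (F := F) (m := m) (by omega) h2
  rw [← Cfsg.Agent.LieClassical.OrthForms.coe_oddForm]
  have : Finite ((Unit ⊕ (Fin m ⊕ Fin m) → F) ≃ₗ[F] (Unit ⊕ (Fin m ⊕ Fin m) → F)) := finite_glin
  exact ExtD3.congr (pomegaEquiv hG).symm
    (ext_odd inv hF hm (odd_of_surj (Cfsg.Agent.AutOrth.Final.surjective_odd (F := F) hm h2)))

theorem ext_pOmegaPlus (inv : InvTool.{u, 0}) (hF : Odd (Fintype.card F)) {m : ℕ} (hm : 4 ≤ m) :
    ExtD3 (Cfsg.POmega F (Cfsg.quadFormPlus m F)) := by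
  have hG := good_plus (F := F) (m := m) (by omega)
  rw [← Cfsg.Agent.LieClassical.OrthForms.coe_plusForm]
  have : Finite ((Fin m ⊕ Fin m → F) ≃ₗ[F] (Fin m ⊕ Fin m → F)) := finite_glin
  refine ExtD3.congr (pomegaEquiv hG).symm (ext_even inv hF _ hG.nondeg m hm (by simp; ring) ?_)
  rcases Nat.lt_or_ge 4 m with h | h
  · exact odd_of_surj (Cfsg.Agent.AutOrth.Final.surjective_plus (F := F) (by omega))
  · obtain rfl : m = 4 := by omega
    rw [Cfsg.Agent.AutOrth.Final.index_plus_four]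
    decide

theorem ext_pOmegaMinus (inv : InvTool.{u, 0}) (hF : Odd (Fintype.card F)) {m : ℕ} (hm : 4 ≤ m) {a b : F}
    (hab : ∀ z₁ z₂ : F, z₁ ^ 2 + a * z₁ * z₂ + b * z₂ ^ 2 = 0 → z₁ = 0 ∧ z₂ = 0) :
    ExtD3 (Cfsg.POmega F (Cfsg.quadFormMinus (m - 1) F a b)) := by
  have hG := good_minus (F := F) (m := m - 1) (by omega) a b hab
  rw [← Cfsg.Agent.LieClassical.OrthForms.coe_minusForm]
  have : Finite (((Fin (m - 1) ⊕ Fin (m - 1)) ⊕ Fin 2 → F) ≃ₗ[F] ((Fin (m - 1) ⊕ Fin (m - 1)) ⊕ Fin 2 → F)) :=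
    finite_glin
  exact ExtD3.congr (pomegaEquiv hG).symm (ext_even inv hF _ hG.nondeg m hm (by simp; omega)
    (odd_of_surj (Cfsg.Agent.AutOrth.Final.surjective_minus (F := F) (by omega) hab)))

end Cfsg.Agent.H829.K547
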